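import Mathlib
import Cfsg.Agent.PLengthGross.Symplectic

/-!
Plane involutions in a 2-group of isometries, and the power of the product of a root with an element of
the group they generate.
-/

set_option autoImplicit false
set_option maxHeartbeats 400000

namespace CfsgLib.PLengthTwoExp

open CfsgLib.PLengthExp CfsgLib.PLengthGross

universe v w

variable {A : Type v} [CommGroup A] {M : Type w} [CommGroup M]

/-- An involution or the identity, inverting at most a plane. -/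
def Small (q : ℕ) (w : MulAut M) : Prop := w ^ 2 = 1 ∧ (fixSub w).index ≤ q ^ 2

theorem small_one (q : ℕ) (hq : 0 < q) : Small q (1 : MulAut M) :=
  ⟨one_pow 2, le_trans (le_of_eq (by
    rw [show fixSub (1 : MulAut M) = ⊤ from eq_top_iff.2 fun x _ => mem_fixSub.2 rfl, Subgroup.index_top]))
    (Nat.one_le_pow _ _ hq)⟩

theorem mem_fixSub_conj {g w : MulAut M} {x : M} : x ∈ fixSub (g * w * g⁻¹) ↔ g⁻¹ x ∈ fixSub w := by
  rw [mem_fixSub, mem_fixSub, MulAut.mul_apply, MulAut.mul_apply]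
  constructor
  · intro h
    conv_rhs => rw [← h, MulAut.inv_apply_self]
  · intro h
    rw [h, MulAut.apply_inv_self]

theorem mem_negSub_conj {g w : MulAut M} {x : M} : x ∈ negSub (g * w * g⁻¹) ↔ g⁻¹ x ∈ negSub w := by
  rw [mem_negSub, mem_negSub, MulAut.mul_apply, MulAut.mul_apply]
  constructor
  · intro h
    conv_rhs => rw [← map_inv, ← h, MulAut.inv_apply_self]
  · intro h
    rw [h, map_inv, MulAut.apply_inv_self]

theorem small_conj {q : ℕ} [Finite M] {g w : MulAut M} (hw : Small q w) : Small q (g * w * g⁻¹) := by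
  refine ⟨by rw [conj_pow, hw.1, mul_one, mul_inv_cancel], le_of_eq_of_le ?_ hw.2⟩
  have h : fixSub (g * w * g⁻¹) = (fixSub w).map g.toMonoidHom := by
    ext x
    rw [mem_fixSub_conj, Subgroup.mem_map_equiv]
    rfl
  rw [h]
  exact Subgroup.index_map_equiv _ g

/-- The squares generate. -/
def sqOf {H : Type*} [Group H] (X : Subgroup H) : Subgroup H :=
  Subgroup.closure ((fun x => x ^ 2) '' (X : Set H))

theorem sq_mem_sqOf {H : Type*} [Group H] {X : Subgroup H} {x : H} (hx : x ∈ X) : x ^ 2 ∈ sqOf X :=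
  Subgroup.subset_closure ⟨x, hx, rfl⟩

theorem sqOf_le {H : Type*} [Group H] (X : Subgroup H) : sqOf X ≤ X := by
  rw [sqOf, Subgroup.closure_le]
  rintro _ ⟨x, hx, rfl⟩
  exact pow_mem hx 2

theorem conj_mem_sqOf {H : Type*} [Group H] {X : Subgroup H} {g y : H}
    (hg : ∀ x ∈ X, g * x * g⁻¹ ∈ X) (hy : y ∈ sqOf X) : g * y * g⁻¹ ∈ sqOf X := by
  refine (?_ : sqOf X ≤ (sqOf X).comap (MulAut.conj g).toMonoidHom) hy
  rw [sqOf, Subgroup.closure_le]
  rintro _ ⟨x, hx, rfl⟩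
  show g * x ^ 2 * g⁻¹ ∈ sqOf X
  rw [← conj_pow]
  exact sq_mem_sqOf (hg x hx)

theorem comm_mem_sqOf {H : Type*} [Group H] {X : Subgroup H} {x y : H} (hx : x ∈ X) (hy : y ∈ X) :
    x * y * x⁻¹ * y⁻¹ ∈ sqOf X := by
  have h : x * y * x⁻¹ * y⁻¹ = (x * y) ^ 2 * ((y⁻¹ * x⁻¹ * y) ^ 2) * (y⁻¹) ^ 2 := by
    simp only [sq]; group
  rw [h]
  exact mul_mem (mul_mem (sq_mem_sqOf (mul_mem hx hy))
    (sq_mem_sqOf (mul_mem (mul_mem (inv_mem hy) (inv_mem hx)) hy))) (sq_mem_sqOf (inv_mem hy))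

/-- The fourth power of `c a` for `[a, [a, c]] = 1`. -/
theorem pow_four_mem_sqOf {H : Type*} [Group H] {X : Subgroup H} {a c : H}
    (hc : c ∈ X) (hac : a * c * a⁻¹ ∈ X) (hcomm : a * (a * c * a⁻¹ * c⁻¹) = a * c * a⁻¹ * c⁻¹ * a) :
    (c * a) ^ 4 * (a ^ 4)⁻¹ ∈ sqOf X := by
  set d := a * c * a⁻¹ * c⁻¹ with hd
  have hdX : d ∈ X := mul_mem hac (inv_mem hc)
  have h1 : a * c = d * c * a := by rw [hd]; group
  have hcm : ∀ l : ℕ, a ^ l * d = d * a ^ l := fun l => ((show Commute a d from hcomm).pow_left l).eq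
  have h2 : (c * a) ^ 2 = c * d * c * a ^ 2 := by
    calc (c * a) ^ 2 = c * (a * c) * a := by rw [sq]; group
      _ = c * d * c * a ^ 2 := by rw [h1, sq]; group
  have h3 : a ^ 2 * c = d ^ 2 * c * a ^ 2 := by
    calc a ^ 2 * c = a * (a * c) := by rw [sq, mul_assoc]
      _ = (a * d) * c * a := by rw [h1]; group
      _ = d * (a * c) * a := by rw [hcomm]; group
      _ = d ^ 2 * c * a ^ 2 := by rw [h1, sq, sq]; group
  have h4 : (c * a) ^ 4 * (a ^ 4)⁻¹ = c * d * c * (d ^ 2 * c) * (d * (d ^ 2 * c)) := by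
    rw [show 4 = 2 * 2 from rfl, pow_mul, pow_mul, h2, sq (c * d * c * a ^ 2), sq (a ^ 2)]
    calc c * d * c * a ^ 2 * (c * d * c * a ^ 2) * (a ^ 2 * a ^ 2)⁻¹
        = c * d * c * (a ^ 2 * c) * d * c * (a ^ 2)⁻¹ := by group
      _ = c * d * c * (d ^ 2 * c) * (a ^ 2 * d) * c * (a ^ 2)⁻¹ := by rw [h3]; group
      _ = c * d * c * (d ^ 2 * c) * d * (a ^ 2 * c) * (a ^ 2)⁻¹ := by rw [hcm 2]; group
      _ = _ := by rw [h3]; group
  rw [h4]
  have e2 : c * d * c * (d ^ 2 * c) * (d * (d ^ 2 * c)) =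
      (c * d * c * d) ^ 1 * (d * c * (d ^ 2) * (d * c)⁻¹) * ((d * c) * d * c) := by
    simp only [sq, pow_one]; group
  rw [e2, pow_one, show c * d * c * d = (c * d) ^ 2 by rw [sq]; group, show d * c * d * c = (d * c) ^ 2 by rw [sq]; group]
  exact mul_mem (mul_mem (sq_mem_sqOf (mul_mem hc hdX))
    (conj_mem_sqOf (fun x hx => mul_mem (mul_mem (mul_mem hdX hc) hx) (inv_mem (mul_mem hdX hc)))
      (sq_mem_sqOf hdX))) (sq_mem_sqOf (mul_mem hdX hc))

variable [Finite M] {q : ℕ} [hq : Fact q.Prime] {β : M →* M →* A}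

/-- A nontrivial involution inverts a nontrivial point. -/
theorem sq_le_card_negSub (hq2 : q ≠ 2) (hM : IsPGroup q M) (hβ : IsAlt β) {u : MulAut M}
    (hu2 : u ^ 2 = 1) (hu : Isom β u) (hne : u ≠ 1) : q ^ 2 ≤ Nat.card (negSub u) := by
  obtain ⟨x, hx⟩ : ∃ x, u x ≠ x := by
    by_contra h
    push Not at h
    exact hne (MulEquiv.ext h)
  refine sq_le_card (hM.to_subgroup _) (isAlt_res hq2 hM hβ hu2 hu).2
    (x := ⟨_, (mul_apply_mem hu2 x).2⟩) fun h => hx ?_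
  exact (mul_inv_eq_one.1 (congrArg Subtype.val h)).symm

/-- Two small involutions with equal negatives. -/
theorem eq_of_negSub_le (hq2 : q ≠ 2) (hM : IsPGroup q M) (hβ : IsAlt β) {u u' : MulAut M}
    (hu : Small q u) (hu' : Small q u') (hiu : Isom β u) (hiu' : Isom β u') (hcomm : u' * u = u * u')
    (hne : u ≠ 1) (hle : negSub u ≤ negSub u') : u = u' := by
  by_contra h
  have h1 := negSub_le_fixSub hq2 hM hβ hu.1 hu'.1 hiu hiu' hcomm h hu.2 hu'.2
  have h2 := sq_le_card_negSub hq2 hM hβ hu.1 hiu hne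
  have h3 : negSub u = ⊥ := (Subgroup.eq_bot_iff_forall _).2 fun x hx => fix_neg_eq_one hq2 hM (h1 hx) (hle hx)
  rw [h3, Subgroup.card_bot] at h2
  have := Nat.one_lt_pow two_ne_zero hq.out.one_lt
  omega

section Group

variable {P : Subgroup (MulAut M)} (hP : IsPGroup 2 P) (hPβ : ∀ σ ∈ P, Isom β σ)
include hP hPβ

/-- Two small involutions moving a plane involution to different places. -/
theorem conj_eq_conj (hq2 : q ≠ 2) (hM : IsPGroup q M) (hβ : IsAlt β) {u r v v' : MulAut M}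
    (hr : r ∈ P) (hru : r ^ 2 = u) (hu : Small q u) (hu1 : u ≠ 1) (hv : v ∈ P) (hv' : v' ∈ P)
    (hsv : Small q v) (hsv' : Small q v') (h : v * u * v⁻¹ ≠ u) (h' : v' * u * v'⁻¹ ≠ u) :
    v * u * v⁻¹ = v' * u * v'⁻¹ := by
  classical
  letI : Fintype M := Fintype.ofFinite M
  by_contra hne
  have hmem : ∀ g ∈ P, g * u * g⁻¹ ∈ P ∧ (∃ σ ∈ P, σ ^ 2 = g * u * g⁻¹) ∧ g * u * g⁻¹ ≠ 1 := fun g hg =>
    ⟨hru ▸ mul_mem (mul_mem hg (pow_mem hr 2)) (inv_mem hg),
      ⟨g * r * g⁻¹, mul_mem (mul_mem hg hr) (inv_mem hg), by rw [conj_pow, hru]⟩,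
      fun he => hu1 (conj_eq_one_iff.1 he)⟩
  have hcomm : ∀ g ∈ P, ∀ g' ∈ P, g * u * g⁻¹ * (g' * u * g'⁻¹) = g' * u * g'⁻¹ * (g * u * g⁻¹) :=
    fun g hg g' hg' => commute_of_sq _ M rfl hq2 hM β hβ P hP hPβ _ (hmem g hg).1 _ (hmem g' hg').1
      (small_conj hu).1 (small_conj hu).1 (hmem g hg).2.1 (hmem g' hg').2.1 (small_conj hu).2 (small_conj hu).2
  have hdisj : ∀ g ∈ P, ∀ g' ∈ P, g * u * g⁻¹ ≠ g' * u * g'⁻¹ →
      negSub (g * u * g⁻¹) ≤ fixSub (g' * u * g'⁻¹) := fun g hg g' hg' hgg =>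
    negSub_le_fixSub hq2 hM hβ (small_conj hu).1 (small_conj hu).1 (hPβ _ (hmem g hg).1) (hPβ _ (hmem g' hg').1)
      (hcomm g' hg' g hg) hgg (small_conj hu).2 (small_conj hu).2
  -- `v` fixes the common fixed points of `u` and its conjugate
  have key : ∀ g ∈ P, Small q g → g * u * g⁻¹ ≠ u → ∀ x ∈ fixSub u, x ∈ fixSub (g * u * g⁻¹) → g x = x := by
    intro g hg hsg hgu x hx hx'
    have hd : negSub u ≤ fixSub (g * u * g⁻¹) := by
      have := hdisj 1 (one_mem _) g hg (by simpa using hgu.symm)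
      simpa using this
    have hgg : g⁻¹ = g := inv_eq_of_mul_eq_one_right (by rw [← sq, hsg.1])
    let φ : negSub u → negSub g := fun t => ⟨(t : M) * (g t)⁻¹, (mul_apply_mem hsg.1 _).2⟩
    have hφ : Function.Injective φ := by
      intro s t hst
      have h1 : (s : M) * (g s)⁻¹ = t * (g t)⁻¹ := congrArg Subtype.val hst
      have h2 : (s : M) * (t : M)⁻¹ = g (s * (t : M)⁻¹) := by
        rw [map_mul, map_inv]
        calc (s : M) * (t : M)⁻¹ = (s * (g s)⁻¹) * (g s * (t : M)⁻¹) := by group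
          _ = t * (g t)⁻¹ * (g s * (t : M)⁻¹) := by rw [h1]
          _ = g s * (g t)⁻¹ := by
            rw [mul_comm (g s), ← mul_assoc, mul_comm (t : M) (g t)⁻¹, mul_assoc (g t)⁻¹, mul_inv_cancel,
              mul_one, mul_comm]
      have h3 : (s : M) * (t : M)⁻¹ ∈ negSub u := mul_mem s.2 (inv_mem t.2)
      have h4 : g⁻¹ ((s : M) * (t : M)⁻¹) ∈ negSub u := by rw [hgg, ← h2]; exact h3
      exact Subtype.ext (mul_inv_eq_one.1 (fix_neg_eq_one hq2 hM (hd h3) (mem_negSub_conj.2 h4)))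
    have hsurj : Function.Surjective φ :=
      ((Fintype.bijective_iff_injective_and_card φ).2 ⟨hφ, by
        rw [← Nat.card_eq_fintype_card, ← Nat.card_eq_fintype_card]
        refine le_antisymm (Nat.card_le_card_of_injective φ hφ) ?_
        rw [← index_fixSub_eq hq2 hM hsg.1]
        exact hsg.2.trans (sq_le_card_negSub hq2 hM hβ hu.1 (hru ▸ hPβ _ (pow_mem hr 2)) hu1)⟩).2
    obtain ⟨⟨t, ht⟩, hφt⟩ := hsurj ⟨_, (mul_apply_mem hsg.1 x).2⟩
    have he : t * (g t)⁻¹ = x * (g x)⁻¹ := congrArg Subtype.val hφt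
    have hgx : g x ∈ fixSub u := by
      have h1 : g⁻¹ x ∈ fixSub u := mem_fixSub_conj.1 hx'
      rwa [hgg] at h1
    have hgt : g t ∈ fixSub u := by
      have h1 : g⁻¹ t ∈ fixSub u := mem_fixSub_conj.1 (hd ht)
      rwa [hgg] at h1
    have ht' : t ∈ fixSub u := by
      rw [mul_inv_eq_iff_eq_mul] at he
      rw [he]
      exact mul_mem (mul_mem hx (inv_mem hgx)) hgt
    rw [fix_neg_eq_one hq2 hM ht' ht, map_one, inv_one, mul_one] at he
    exact (mul_inv_eq_one.1 he.symm).symm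
  -- hence each fixes the conjugate by the other
  have hfix : ∀ g ∈ P, ∀ g' ∈ P, Small q g → g * u * g⁻¹ ≠ u → g' * u * g'⁻¹ ≠ u →
      g * u * g⁻¹ ≠ g' * u * g'⁻¹ → g * (g' * u * g'⁻¹) * g⁻¹ = g' * u * g'⁻¹ := by
    intro g hg g' hg' hsg hgu hg'u hgg
    have he : g * (g' * u * g'⁻¹) * g⁻¹ = g * g' * u * (g * g')⁻¹ := by group
    rw [he]
    refine (eq_of_negSub_le hq2 hM hβ (small_conj hu) (small_conj hu) (hPβ _ (hmem g' hg').1)
      (hPβ _ (hmem _ (mul_mem hg hg')).1) (hcomm _ (mul_mem hg hg') g' hg') (hmem g' hg').2.2 ?_).symm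
    intro x hx
    have h1 : g x = x := key g hg hsg hgu x (by
      have := hdisj g' hg' 1 (one_mem _) (by simpa using hg'u) hx
      simpa using this) (hdisj g' hg' g hg hgg.symm hx)
    rw [mem_negSub_conj, mul_inv_rev, MulAut.mul_apply]
    have h2 : g⁻¹ x = x := by conv_lhs => rw [← h1, MulAut.inv_apply_self]
    rw [h2]
    exact mem_negSub_conj.1 hx
  have f1 := hfix v hv v' hv' hsv h h' hne
  have f2 := hfix v' hv' v hv hsv' h' h (Ne.symm hne)
  have hvv : v⁻¹ = v := inv_eq_of_mul_eq_one_right (by rw [← sq, hsv.1])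
  have hvv' : v'⁻¹ = v' := inv_eq_of_mul_eq_one_right (by rw [← sq, hsv'.1])
  set t := v * v' with ht
  let cj : MulAut M →* MulAut (MulAut M) := MulAut.conj
  have e1 : cj t u = v' * u * v'⁻¹ := by
    show t * u * t⁻¹ = _
    rw [ht, ← f1]; group
  have e2 : cj t (v' * u * v'⁻¹) = v * u * v⁻¹ := by
    show t * (v' * u * v'⁻¹) * t⁻¹ = _
    rw [ht]
    calc v * v' * (v' * u * v'⁻¹) * (v * v')⁻¹ = v * (v' * v') * u * (v' * v')⁻¹ * v⁻¹ := by group
      _ = v * u * v⁻¹ := by rw [← sq, hsv'.1]; group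
  have e3 : cj t (v * u * v⁻¹) = u := by
    show t * (v * u * v⁻¹) * t⁻¹ = _
    rw [ht]
    calc v * v' * (v * u * v⁻¹) * (v * v')⁻¹ = v * (v' * (v * u * v⁻¹) * v'⁻¹) * v⁻¹ := by group
      _ = (v * v) * u * (v * v)⁻¹ := by rw [f2]; group
      _ = u := by rw [← sq, hsv.1]; group
  have e4 : cj (t ^ 3) u = u := by
    rw [map_pow, pow_succ', pow_two, MulAut.mul_apply, MulAut.mul_apply, e1, e2, e3]
  obtain ⟨l, hl⟩ := hP ⟨t, mul_mem hv hv'⟩
  have hl' : t ^ 2 ^ l = 1 := congrArg Subtype.val hl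
  obtain ⟨s, hs⟩ := exists_pow_eq_self_of_coprime (x := t) (n := 3)
    (Nat.Coprime.coprime_dvd_right (orderOf_dvd_of_pow_eq_one hl')
      (Nat.Coprime.pow_right l (by norm_num)))
  have e5 : ∀ i : ℕ, cj ((t ^ 3) ^ i) u = u := fun i => by
    induction i with
    | zero => rw [pow_zero, map_one]; rfl
    | succ i ih => rw [pow_succ, map_mul, MulAut.mul_apply, e4, ih]
  have e6 := e5 s
  rw [hs, e1] at e6
  exact h' e6

end Group

end CfsgLib.PLengthTwoExp
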