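import Mathlib
import Cfsg.Agent.PLengthTwoExp.Plane

/-!
The power of the product of a root of a plane involution and an element of the group generated by plane
involutions.
-/

set_option autoImplicit false
set_option maxHeartbeats 400000

namespace CfsgLib.PLengthTwoExp

open CfsgLib.PLengthExp CfsgLib.PLengthGross

universe v w

variable {A : Type v} [CommGroup A] {M : Type w} [CommGroup M]

/-- A group of automorphisms without nontrivial fixed points has order dividing `|U| - 1`. -/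
theorem card_dvd_of_free [Finite M] (Q : Subgroup (MulAut M))
    (hfree : ∀ g ∈ Q, ∀ x : M, g x = x → x ≠ 1 → g = 1) : Nat.card Q ∣ Nat.card M - 1 := by
  classical
  let X := {x : M // x ≠ 1}
  letI : MulAction Q X :=
    { smul := fun g x => ⟨(g : MulAut M) x.1, fun h => x.2 ((g : MulAut M).map_eq_one_iff.1 h)⟩
      one_smul := fun x => Subtype.ext rfl
      mul_smul := fun g g' x => Subtype.ext rfl }
  have hcard : Nat.card X = Nat.card M - 1 := by
    rw [← Nat.card_congr (Equiv.sumCompl fun x : M => x ≠ 1), Nat.card_sum]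
    haveI : Unique {x : M // ¬ x ≠ 1} := ⟨⟨⟨1, by simp⟩⟩, fun x => Subtype.ext (by simpa using x.2)⟩
    rw [Nat.card_unique (α := {x : M // ¬ x ≠ 1}), Nat.add_sub_cancel]
  rw [← hcard, Nat.card_congr (MulAction.selfEquivSigmaOrbits Q X)]
  haveI := Fintype.ofFinite (Quotient (MulAction.orbitRel Q X))
  rw [Nat.card_sigma]
  refine Finset.dvd_sum fun o _ => dvd_of_eq ?_
  have hst : MulAction.stabilizer Q (Quotient.out o) = ⊥ := by
    rw [Subgroup.eq_bot_iff_forall]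
    intro g hg
    exact Subtype.ext (hfree g g.2 (Quotient.out o).1 (congrArg Subtype.val hg) (Quotient.out o).2)
  rw [Nat.card_congr (MulAction.orbitEquivQuotientStabilizer Q (Quotient.out o)), hst,
    ← Subgroup.index_eq_card, Subgroup.index_bot]

variable [Finite M] {q : ℕ} [hq : Fact q.Prime] {β : M →* M →* A}

/-- Two automorphisms commuting with an involution and agreeing on both halves. -/
theorem eq_of_res (hq2 : q ≠ 2) (hM : IsPGroup q M) {u g g' : MulAut M} (hu2 : u ^ 2 = 1)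
    (hg : ∀ x ∈ fixSub u, g x = x) (hg' : ∀ x ∈ fixSub u, g' x = x)
    (h : ∀ x ∈ negSub u, g x = g' x) : g = g' :=
  ext_fix_neg hq2 hM hu2 (fun x hx => (hg x hx).trans (hg' x hx).symm) h

variable {P : Subgroup (MulAut M)} (hP : IsPGroup 2 P) (hPβ : ∀ σ ∈ P, Isom β σ)
include hP hPβ

/-- The main computation. -/
theorem pow_mem_sqOf (hq2 : q ≠ 2) (hM : IsPGroup q M) (hβ : IsAlt β) {f : ℕ} (hf : 2 ≤ f)
    (hqf : q + 1 = 2 ^ f) {a : MulAut M} (ha : a ∈ P) (hu : Small q (a ^ 2 ^ (f - 1)))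
    (hu1 : a ^ 2 ^ (f - 1) ≠ 1) (haF : ∀ x ∈ fixSub (a ^ 2 ^ (f - 1)), a x = x)
    {G : Set (MulAut M)} (hG : ∀ v ∈ G, v ∈ P ∧ Small q v) {X : Subgroup (MulAut M)}
    (hXG : X ≤ Subgroup.closure G) (hXn : ∀ g ∈ P, ∀ x ∈ X, g * x * g⁻¹ ∈ X) {c : MulAut M} (hc : c ∈ X)
    (hb : Small q ((c * a) ^ 2 ^ (f - 1))) :
    (c * a) ^ 2 ^ (f - 1) * (a ^ 2 ^ (f - 1))⁻¹ ∈ sqOf X := by
  classical
  haveI := Fact.mk Nat.prime_two
  set u := a ^ 2 ^ (f - 1) with hudef
  have hGP : Subgroup.closure G ≤ P := (Subgroup.closure_le P).2 fun v hv => (hG v hv).1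
  have hcP : c ∈ P := hGP (hXG hc)
  have huP : u ∈ P := pow_mem ha _
  have hiu : Isom β u := hPβ u huP
  set a' := c * a * c⁻¹ with ha'
  set u' := c * u * c⁻¹ with hu'def
  have ha'u : a' ^ 2 ^ (f - 1) = u' := by rw [ha', conj_pow]
  have ha'P : a' ∈ P := mul_mem (mul_mem hcP ha) (inv_mem hcP)
  have hau : a * u = u * a := (Commute.refl a).pow_right _
  have ha'u' : a' * u' = u' * a' := by rw [← ha'u]; exact ((Commute.refl a').pow_right _).eq
  have ha'F : ∀ x ∈ fixSub u', a' x = x := fun x hx => by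
    rw [ha', MulAut.mul_apply, MulAut.mul_apply, haF _ (mem_fixSub_conj.1 hx), MulAut.apply_inv_self]
  have hroot : ∀ g ∈ P, ∃ σ ∈ P, σ ^ 2 = g * u * g⁻¹ := fun g hg =>
    ⟨g * a ^ 2 ^ (f - 2) * g⁻¹, mul_mem (mul_mem hg (pow_mem ha _)) (inv_mem hg), by
      rw [conj_pow, ← pow_mul, ← pow_succ, show f - 2 + 1 = f - 1 by omega]⟩
  -- the restriction to the plane
  set U := negSub u with hU
  let C : Subgroup (MulAut M) := P ⊓ Subgroup.centralizer {u}
  have hCc : ∀ {g : MulAut M}, g ∈ C → g * u = u * g := fun hg =>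
    Subgroup.mem_centralizer_singleton_iff.1 hg.2
  have hCmk : ∀ {g : MulAut M}, g ∈ P → g * u = u * g → g ∈ C := fun hg h =>
    ⟨hg, Subgroup.mem_centralizer_singleton_iff.2 h⟩
  let r : C →* MulAut U := (resAut U).comp
    (Subgroup.inclusion fun _ hg => mem_presSub_neg_of_commute (hCc hg))
  have hr : ∀ (g : C) (x : U), ((r g x : U) : M) = (g : MulAut M) x := fun _ _ => rfl
  set Q := r.range with hQ
  have hQ2 : IsPGroup 2 Q :=
    (hP.to_le (inf_le_left : C ≤ P)).of_surjective r.rangeRestrict r.rangeRestrict_surjective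
  have hUM : IsPGroup q U := hM.to_subgroup U
  have hUalt : IsAlt (resPair β U) := (isAlt_res hq2 hM hβ hu.1 hiu).2
  have hcardU : Nat.card U = q ^ 2 := le_antisymm (by rw [← index_fixSub_eq hq2 hM hu.1]; exact hu.2)
    (sq_le_card_negSub hq2 hM hβ hu.1 hiu hu1)
  have hQβ : ∀ γ ∈ Q, Isom (resPair β U) γ := by
    rintro _ ⟨g, rfl⟩ x y
    exact hPβ _ g.2.1 _ _
  have hinvol : ∀ w ∈ Q, w ^ 2 = 1 → ∀ x : U, w x = x → x ≠ 1 → w = 1 := by
    intro w hw hw2 x hx hx1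
    refine MulEquiv.ext fun y => mem_fixSub.1 ((?_ : fixSub w = ⊤) ▸ Subgroup.mem_top y)
    refine Subgroup.eq_top_of_le_card _ (hcardU.le.trans ?_)
    exact sq_le_card (hUM.to_subgroup _) (isAlt_res hq2 hUM hUalt hw2 (hQβ w hw)).1
      (x := ⟨x, hx⟩) fun h => hx1 (congrArg Subtype.val h)
  have hfree : ∀ g ∈ Q, ∀ x : U, g x = x → x ≠ 1 → g = 1 := by
    intro g hg x hx hx1
    obtain ⟨l, hl⟩ := hQ2 ⟨g, hg⟩
    have hl' : g ^ 2 ^ l = 1 := congrArg Subtype.val hl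
    clear hl
    induction l generalizing g with
    | zero => rwa [pow_zero, pow_one] at hl'
    | succ l ih =>
      have h2 : g ^ 2 = 1 := ih (g ^ 2) (pow_mem hg 2) (by rw [sq, MulAut.mul_apply, hx, hx])
        (by rwa [← pow_mul, ← pow_succ'])
      exact hinvol g hg h2 x hx hx1
  have hQcard : Nat.card Q ∣ 2 ^ (f + 1) := by
    obtain ⟨l, hl⟩ := IsPGroup.iff_card.1 hQ2
    have h1 := card_dvd_of_free Q hfree
    rw [hcardU, hl] at h1
    rw [hl]
    refine pow_dvd_pow 2 ?_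
    by_contra hlt
    have h2 : 2 ^ (f + 1) * 2 ∣ q ^ 2 - 1 := (pow_dvd_pow 2 (by omega : f + 2 ≤ l)).trans h1
    obtain ⟨k, hk⟩ := h2
    have e1 : 2 ^ f = 2 * (2 * 2 ^ (f - 2)) := by
      rw [← mul_assoc, show 2 * 2 = 2 ^ 2 from rfl, ← pow_add]
      congr 1
      omega
    have e2 : q ^ 2 - 1 = 2 ^ (f + 1) * (2 * 2 ^ (f - 2) - 1) := by
      have e3 : q - 1 = 2 * (2 * 2 ^ (f - 2) - 1) := by omega
      rw [show q ^ 2 - 1 = (q + 1) * (q - 1) by simpa using Nat.sq_sub_sq q 1, hqf, e3, pow_succ, mul_assoc]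
    rw [e2, mul_assoc] at hk
    have := Nat.eq_of_mul_eq_mul_left (pow_pos two_pos _) hk
    have := Nat.one_le_two_pow (n := f - 2)
    omega
  -- the root on the plane
  have haC : a ∈ C := hCmk ha hau
  have huC : u ∈ C := hCmk huP rfl
  set α := r ⟨a, haC⟩ with hα
  set ι := r ⟨u, huC⟩ with hι
  have hια : α ^ 2 ^ (f - 1) = ι := by rw [hα, ← map_pow]; rfl
  have hιx : ∀ x : U, ι x = x⁻¹ := fun x => Subtype.ext x.2
  haveI : Nontrivial U := (Finite.one_lt_card_iff_nontrivial).1 (by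
    rw [hcardU]; exact Nat.one_lt_pow two_ne_zero hq.out.one_lt)
  obtain ⟨x₀, hx₀⟩ := exists_ne (1 : U)
  have hι1 : ι ≠ 1 := fun h => by
    have h1 := hιx x₀
    rw [h, MulAut.one_apply] at h1
    exact hx₀ (eq_one_of_sq hq2 hUM (by rw [sq]; nth_rw 2 [h1]; exact mul_inv_cancel x₀))
  have huniq : ∀ w ∈ Q, w ^ 2 = 1 → w = 1 ∨ w = ι := by
    intro w hw hw2
    refine or_iff_not_imp_left.2 fun hw1 => MulEquiv.ext fun x => ?_
    rw [hιx]
    have h1 : x * w x = 1 := by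
      by_contra h
      exact hw1 (hinvol w hw hw2 _ (mul_apply_mem hw2 x).1 h)
    exact eq_inv_of_mul_eq_one_right h1
  have hι2 : ι ^ 2 = 1 := by
    rw [hι, ← map_pow, show (⟨u, huC⟩ : C) ^ 2 = 1 from Subtype.ext hu.1, map_one]
  have hαord : orderOf α = 2 ^ f := by
    have h := orderOf_eq_prime_pow (p := 2) (n := f - 1) (x := α) (by rwa [hια])
      (by rw [pow_succ, pow_mul, hια, hι2])
    rwa [Nat.sub_add_cancel (by omega : 1 ≤ f)] at h
  let αQ : Q := ⟨α, ⟨_, rfl⟩⟩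
  have hidx : (Subgroup.zpowers αQ).index ∣ 2 := by
    have h1 := (Subgroup.zpowers αQ).card_mul_index
    rw [Nat.card_zpowers, show orderOf αQ = 2 ^ f from (Subgroup.orderOf_coe αQ).symm.trans hαord] at h1
    rw [← h1, pow_succ] at hQcard
    exact (Nat.mul_dvd_mul_iff_left (pow_pos two_pos f)).1 hQcard
  haveI hαn : (Subgroup.zpowers αQ).Normal := by
    rcases (Nat.dvd_prime Nat.prime_two).1 hidx with h | h
    · rw [Subgroup.index_eq_one.1 h]; infer_instance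
    · exact Subgroup.normal_of_index_eq_two h
  have hconjα : ∀ γ ∈ Q, ∃ l : ℤ, γ * α * γ⁻¹ = α ^ l := by
    intro γ hγ
    obtain ⟨l, hl⟩ := hαn.conj_mem αQ (Subgroup.mem_zpowers _) ⟨γ, hγ⟩
    exact ⟨l, (congrArg Subtype.val hl).symm⟩
  have hcomm_a' : u' = u → ∃ (hc' : c ∈ C), Commute a a' ∧
      (r ⟨c, hc'⟩ * α * (r ⟨c, hc'⟩)⁻¹ = α → a' = a) ∧ (r ⟨c, hc'⟩ * α * (r ⟨c, hc'⟩)⁻¹ = α⁻¹ → a' = a⁻¹) := by
    intro he
    have hc' : c ∈ C := hCmk hcP (by
      rw [hu'def, mul_inv_eq_iff_eq_mul] at he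
      exact he)
    have hres : ∀ x : U, ((r ⟨c, hc'⟩ * α * (r ⟨c, hc'⟩)⁻¹) x : M) = a' x := fun x => by
      rw [hα, ← map_inv, ← map_mul, ← map_mul]
      rfl
    have ha'F' : ∀ x ∈ fixSub u, a' x = x := fun x hx => ha'F x (by rwa [he])
    obtain ⟨l, hl⟩ := hconjα _ ⟨_, rfl⟩
    refine ⟨hc', ?_, fun h => ?_, fun h => ?_⟩
    · refine ext_fix_neg hq2 hM hu.1 (fun x hx => ?_) fun x hx => ?_
      · show a (a' x) = a' (a x)
        rw [ha'F' x hx, haF x hx, ha'F' x hx]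
      · have h1 : α * α ^ l = α ^ l * α := ((Commute.refl α).zpow_right l).eq
        rw [← hl] at h1
        have h2 := congrArg Subtype.val (DFunLike.congr_fun h1 ⟨x, hx⟩)
        change a (((r ⟨c, hc'⟩ * α * (r ⟨c, hc'⟩)⁻¹) ⟨x, hx⟩ : U) : M) =
          (((r ⟨c, hc'⟩ * α * (r ⟨c, hc'⟩)⁻¹) (α ⟨x, hx⟩) : U) : M) at h2
        rw [hres, hres] at h2
        exact h2
    · refine eq_of_res hq2 hM hu.1 ha'F' haF fun x hx => ?_
      have h2 := hres ⟨x, hx⟩
      rw [h] at h2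
      exact h2.symm
    · refine eq_of_res hq2 hM hu.1 ha'F' (fun x hx => ?_) fun x hx => ?_
      · conv_lhs => rw [← haF x hx, MulAut.inv_apply_self]
      · have h2 := hres ⟨x, hx⟩
        rw [h, hα, ← map_inv, hr] at h2
        exact h2.symm
  have hu'c : u' * u = u * u' := by
    refine commute_of_sq _ M rfl hq2 hM β hβ P hP hPβ _ (mul_mem (mul_mem hcP huP) (inv_mem hcP)) _ huP
      (small_conj hu).1 hu.1 (hroot c hcP) ?_ (small_conj hu).2 hu.2
    have h := hroot 1 (one_mem _)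
    simpa using h
  have hiu' : Isom β u' := hPβ _ (mul_mem (mul_mem hcP huP) (inv_mem hcP))
  have haa' : Commute a a' := by
    rcases eq_or_ne u' u with he | he
    · exact (hcomm_a' he).2.1
    · exact commute_root hq2 hM hβ hu.1 (small_conj hu).1 hiu hiu' hu'c he.symm hu.2
        (small_conj hu).2 hau ha'u' haF ha'F
  rcases (Nat.lt_or_eq_of_le hf : 2 < f ∨ 2 = f) with hf3 | rfl
  · -- `f ≥ 3`
    have hd : a * (a * c * a⁻¹ * c⁻¹) = a * c * a⁻¹ * c⁻¹ * a := by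
      have e : a * c * a⁻¹ * c⁻¹ = a * a'⁻¹ := by rw [ha']; group
      rw [e, ((Commute.refl a).mul_right haa'.inv_right).eq]
    have h4 : (c * a) ^ 4 * (a ^ 4)⁻¹ ∈ sqOf X := pow_four_mem_sqOf hc (hXn a ha c hc) hd
    have h4k : ∀ k : ℕ, (c * a) ^ (4 * k) * (a ^ (4 * k))⁻¹ ∈ sqOf X := by
      intro k
      induction k with
      | zero => simp
      | succ k ih =>
        have e : (c * a) ^ (4 * (k + 1)) * (a ^ (4 * (k + 1)))⁻¹ =
            (c * a) ^ 4 * (a ^ 4)⁻¹ * (a ^ 4 * ((c * a) ^ (4 * k) * (a ^ (4 * k))⁻¹) * (a ^ 4)⁻¹) := by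
          rw [show 4 * (k + 1) = 4 + 4 * k by ring, pow_add (c * a), pow_add a]
          group
        rw [e]
        exact mul_mem h4 (conj_mem_sqOf (hXn _ (pow_mem ha 4)) ih)
    rw [hudef, show 2 ^ (f - 1) = 4 * 2 ^ (f - 3) by
      rw [show (4 : ℕ) = 2 ^ 2 from rfl, ← pow_add]; congr 1; omega]
    exact h4k _
  -- `f = 2`
  have hu2a : u = a ^ 2 := by rw [hudef]; norm_num
  have hb2 : (c * a) ^ 2 ^ (2 - 1) = a' * c ^ 2 * a := by
    rw [ha']; norm_num [sq]; group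
  rw [hb2] at hb ⊢
  have hbP : a' * c ^ 2 * a ∈ P := mul_mem (mul_mem ha'P (pow_mem hcP 2)) ha
  have hiv : Isom β (a' * c ^ 2 * a) := hPβ _ hbP
  rcases eq_or_ne u' u with he | he
  · obtain ⟨hc', -, heq, hinv⟩ := hcomm_a' he
    set γ := r ⟨c, hc'⟩ with hγ
    have hγQ : γ ∈ Q := ⟨_, rfl⟩
    obtain ⟨l, hl⟩ := hconjα γ hγQ
    have hcases : γ * α * γ⁻¹ = α ∨ γ * α * γ⁻¹ = α⁻¹ := by
      have hord : orderOf (γ * α * γ⁻¹) = 4 := by
        rw [← MulAut.conj_apply, MulEquiv.orderOf_eq, hαord]; norm_num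
      rw [hl] at hord ⊢
      have h4 : α ^ (4 : ℤ) = 1 := by
        rw [show (4 : ℤ) = ((4 : ℕ) : ℤ) from rfl, zpow_natCast, show (4 : ℕ) = orderOf α by
          rw [hαord]; norm_num, pow_orderOf_eq_one]
      rw [← Int.mul_ediv_add_emod l 4, zpow_add, zpow_mul, h4, one_zpow, one_mul] at hord ⊢
      have h5 := Int.emod_lt_of_pos l (show (0 : ℤ) < 4 by norm_num)
      have h6 := Int.emod_nonneg l (show (4 : ℤ) ≠ 0 by norm_num)
      interval_cases hm : l % 4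
      · rw [zpow_zero, orderOf_one] at hord; norm_num at hord
      · left; exact zpow_one α
      · exfalso
        have h7 : (α ^ (2 : ℤ)) ^ 2 = 1 := by rw [← zpow_natCast, ← zpow_mul]; exact h4
        have := Nat.le_of_dvd two_pos (orderOf_dvd_of_pow_eq_one h7)
        omega
      · right
        refine eq_inv_of_mul_eq_one_left ?_
        rw [← zpow_add_one]; exact h4
    rcases hcases with h | h
    · have hac : a' = a := heq h
      have hca : c ^ 2 * a = a * c ^ 2 := by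
        have h1 : c * a = a * c := by rw [ha', mul_inv_eq_iff_eq_mul] at hac; exact hac
        exact ((show Commute c a from h1).pow_left 2).eq
      have e : a' * c ^ 2 * a * u⁻¹ = c ^ 2 := by
        rw [hac, hu2a, mul_assoc a, hca, sq a, mul_inv_rev]
        calc a * (a * c ^ 2) * (a⁻¹ * a⁻¹) = a * (a * c ^ 2 * a⁻¹) * a⁻¹ := by group
          _ = c ^ 2 := by rw [← hca, mul_inv_cancel_right, ← hca, mul_inv_cancel_right]
      rw [e]
      exact sq_mem_sqOf hc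
    · have hac : a' = a⁻¹ := hinv h
      have hca : c ^ 2 * a = a * c ^ 2 := by
        have h1 : c * a = a⁻¹ * c := by rw [ha', mul_inv_eq_iff_eq_mul] at hac; exact hac
        have h2 : c * a⁻¹ = a * c := by
          rw [mul_inv_eq_iff_eq_mul, mul_assoc, h1, mul_inv_cancel_left]
        rw [sq, mul_assoc, h1, ← mul_assoc, h2, mul_assoc]
      have e : a' * c ^ 2 * a = c ^ 2 := by rw [hac, mul_assoc, hca, inv_mul_cancel_left]
      rw [e] at hb hiv ⊢
      -- on the plane `c ^ 2` is the inversion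
      have hγ2 : γ ^ 2 = ι := by
        have hne : γ * α * γ⁻¹ ≠ α := by
          rw [h]
          intro h1
          have h2 : α ^ 2 = 1 := by rw [sq]; nth_rw 1 [← h1]; exact inv_mul_cancel α
          have := Nat.le_of_dvd two_pos (orderOf_dvd_of_pow_eq_one h2)
          omega
        have hmem : (⟨γ, hγQ⟩ : Q) ^ 2 ∈ Subgroup.zpowers αQ := by
          rcases (Nat.dvd_prime Nat.prime_two).1 hidx with h2 | h2
          · rw [Subgroup.index_eq_one.1 h2]; exact Subgroup.mem_top _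
          · exact Subgroup.sq_mem_of_index_two h2 _
        obtain ⟨m, hm⟩ := hmem
        have hm' : α ^ m = γ ^ 2 := congrArg Subtype.val hm
        have h3 : γ ^ 2 = (γ ^ 2)⁻¹ := by
          conv_rhs => rw [← hm', ← inv_zpow, ← h, conj_zpow, hm']
          group
        have h4 : (γ ^ 2) ^ 2 = 1 := by rw [sq (γ ^ 2)]; nth_rw 1 [h3]; exact inv_mul_cancel _
        rcases huniq _ (pow_mem hγQ 2) h4 with h5 | h5
        · exfalso
          rcases huniq γ hγQ h5 with h6 | h6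
          · exact hne (by rw [h6]; group)
          · refine hne ?_
            rw [h6, ← hια, ((Commute.refl α).pow_left _).eq, mul_inv_cancel_right]
        · exact h5
      have hcu : c ^ 2 = u := by
        by_contra hne'
        have hle : negSub u ≤ fixSub (c ^ 2) := negSub_le_fixSub hq2 hM hβ hu.1 hb.1 hiu hiv
          (((show Commute c u from hCc hc').pow_left 2).eq) (Ne.symm hne') hu.2 hb.2
        have h1 := congrArg Subtype.val (DFunLike.congr_fun hγ2 x₀)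
        rw [hγ, ← map_pow, hιx, hr] at h1
        have h2 : ((⟨c, hc'⟩ : C) ^ 2 : C).1 x₀ = (x₀ : M) := mem_fixSub.1 (hle x₀.2)
        rw [h2] at h1
        exact hx₀ (Subtype.ext (eq_one_of_sq hq2 hM (by
          rw [sq]; nth_rw 2 [h1]; rw [Subgroup.coe_inv, mul_inv_cancel])))
      rw [hcu, mul_inv_cancel]
      exact one_mem _
  -- the element `c` cannot move the plane
  exfalso
  obtain ⟨v0, hv0G, hv0⟩ : ∃ v ∈ G, v * u * v⁻¹ ≠ u := by
    by_contra hcon
    push Not at hcon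
    have hle : Subgroup.closure G ≤ Subgroup.centralizer {u} := (Subgroup.closure_le _).2 fun v hv =>
      Subgroup.mem_centralizer_singleton_iff.2 (mul_inv_eq_iff_eq_mul.1 (hcon v hv))
    exact he (by rw [hu'def, mul_inv_eq_iff_eq_mul]
                 exact Subgroup.mem_centralizer_singleton_iff.1 (hle (hXG hc)))
  obtain ⟨hv0P, hv0s⟩ := hG v0 hv0G
  have hv0i : v0⁻¹ = v0 := inv_eq_of_mul_eq_one_right (by rw [← sq, hv0s.1])
  set u0 := v0 * u * v0⁻¹ with hu0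
  have hv0u0 : v0 * u0 * v0⁻¹ = u := by
    rw [hu0]
    calc v0 * (v0 * u * v0⁻¹) * v0⁻¹ = v0 * v0 * u * (v0 * v0)⁻¹ := by group
      _ = u := by rw [← sq, hv0s.1, one_mul, inv_one, mul_one]
  have hswap : ∀ v ∈ G, (v * u * v⁻¹ = u ∧ v * u0 * v⁻¹ = u0) ∨ (v * u * v⁻¹ = u0 ∧ v * u0 * v⁻¹ = u) := by
    intro v hv
    obtain ⟨hvP, hvs⟩ := hG v hv
    have hvi : v⁻¹ = v := inv_eq_of_mul_eq_one_right (by rw [← sq, hvs.1])
    have hroot1 : (a ^ 2 ^ (2 - 2)) ^ 2 = u := by rw [hu2a]; norm_num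
    rcases eq_or_ne (v * u * v⁻¹) u with h | h
    · left
      refine ⟨h, ?_⟩
      by_contra h'
      have hroot2 : (v0 * a ^ 2 ^ (2 - 2) * v0⁻¹) ^ 2 = u0 := by rw [conj_pow, hroot1]
      have := conj_eq_conj hP hPβ hq2 hM hβ (mul_mem (mul_mem hv0P (pow_mem ha _)) (inv_mem hv0P)) hroot2
        (small_conj hu) (fun e => hu1 (conj_eq_one_iff.1 e)) hvP hv0P hvs hv0s h' (by
          rw [hv0u0]; exact hv0.symm)
      rw [hv0u0] at this
      refine h' ?_
      have e := congrArg (fun t => v⁻¹ * t * v) this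
      rw [show v⁻¹ * (v * u0 * v⁻¹) * v = u0 by group,
        show v⁻¹ * u * v = u by rw [hvi]; nth_rw 2 [← hvi]; exact h] at e
      exact absurd e hv0
    · right
      have h1 : v * u * v⁻¹ = u0 :=
        conj_eq_conj hP hPβ hq2 hM hβ (pow_mem ha _) hroot1 hu hu1 hvP hv0P hvs hv0s h hv0
      refine ⟨h1, ?_⟩
      rw [← h1]
      calc v * (v * u * v⁻¹) * v⁻¹ = v * v * u * (v * v)⁻¹ := by group
        _ = u := by rw [← sq, hvs.1, one_mul, inv_one, mul_one]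
  have hv0C : ∀ g ∈ C, g * u0 * g⁻¹ = u0 → v0 * g * v0⁻¹ ∈ C := by
    intro g hg hg0
    refine hCmk (mul_mem (mul_mem hv0P hg.1) (inv_mem hv0P)) ?_
    have h : v0 * g * v0⁻¹ * (v0 * u0 * v0⁻¹) = v0 * u0 * v0⁻¹ * (v0 * g * v0⁻¹) := by
      rw [conj_mul, conj_mul, mul_inv_eq_iff_eq_mul.1 hg0]
    rwa [hv0u0] at h
  -- the subgroup fixing both planes
  let R : Subgroup (MulAut M) := C ⊓ Subgroup.centralizer {u0}
  have hRv0 : ∀ g ∈ R, v0 * g * v0⁻¹ ∈ R := by
    intro g hg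
    refine ⟨hv0C g hg.1 (mul_inv_eq_iff_eq_mul.2 (Subgroup.mem_centralizer_singleton_iff.1 hg.2)),
      Subgroup.mem_centralizer_singleton_iff.2 ?_⟩
    rw [hu0, conj_mul, conj_mul, hCc hg.1]
  let I : Subgroup Q := Subgroup.zpowers ⟨ι, ⟨_, rfl⟩⟩
  have hIc : I ≤ Subgroup.center Q := by
    rw [Subgroup.zpowers_le, Subgroup.mem_center_iff]
    intro g
    refine Subtype.ext (MulEquiv.ext fun x => ?_)
    show (g : MulAut U) (ι x) = ι ((g : MulAut U) x)
    rw [hιx, hιx, map_inv]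
  haveI : I.Normal := ⟨fun x hx g => by
    rw [Subgroup.mem_center_iff.1 (hIc hx) g, mul_inv_cancel_right]; exact hx⟩
  have hIcard : Nat.card I = 2 := by
    rw [Nat.card_zpowers, ← Subgroup.orderOf_coe]
    exact orderOf_eq_prime hι2 hι1
  have hqcomm : ∀ x y : Q ⧸ I, x * y = y * x := by
    have h1 := I.card_mul_index
    rw [hIcard, Subgroup.index_eq_card] at h1
    have h2 : Nat.card (Q ⧸ I) ∣ 2 ^ 2 := by
      rw [← h1] at hQcard
      exact (Nat.mul_dvd_mul_iff_left two_pos).1 (by rw [show 2 * 2 ^ 2 = 2 ^ (2 + 1) from rfl]; exact hQcard)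
    obtain ⟨m, hm, hm'⟩ := (Nat.dvd_prime_pow Nat.prime_two).1 h2
    rcases (show m = 0 ∨ m = 1 ∨ m = 2 by omega) with rfl | rfl | rfl
    · haveI := (Nat.card_eq_one_iff_unique.1 hm').1
      exact fun x y => Subsingleton.elim _ _
    · haveI := isCyclic_of_prime_card (α := Q ⧸ I) (p := 2) hm'
      letI : CommGroup (Q ⧸ I) := IsCyclic.commGroup
      exact mul_comm
    · exact IsPGroup.commutative_of_card_eq_prime_sq hm'
  letI : CommGroup (Q ⧸ I) := { (inferInstance : Group (Q ⧸ I)) with mul_comm := hqcomm }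
  let π : R →* Q ⧸ I := (QuotientGroup.mk' I).comp
    (r.rangeRestrict.comp (Subgroup.inclusion (inf_le_left : R ≤ C)))
  let cv : R →* R := MonoidHom.mk' (fun g => ⟨v0 * g * v0⁻¹, hRv0 g g.2⟩)
    fun g g' => Subtype.ext conj_mul.symm
  let φ : R →* Q ⧸ I := π * π.comp cv
  have hcvcv : ∀ g : R, cv (cv g) = g := fun g => Subtype.ext (by
    show v0 * (v0 * (g : MulAut M) * v0⁻¹) * v0⁻¹ = g
    nth_rw 1 [← hv0i]; nth_rw 4 [← hv0i]; group)
  have hφcv : ∀ g, φ (cv g) = φ g := fun g => by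
    show π (cv g) * π (cv (cv g)) = π g * π (cv g)
    rw [hcvcv, mul_comm]
  let good : MulAut M → Prop := fun σ =>
    (∃ h : σ ∈ R, φ ⟨σ, h⟩ = 1) ∨ (σ * u * σ⁻¹ = u0 ∧ ∃ h : σ * v0 ∈ R, φ ⟨σ * v0, h⟩ = 1)
  have hRmk : ∀ {g : MulAut M}, g ∈ P → g * u * g⁻¹ = u → g * u0 * g⁻¹ = u0 → g ∈ R := fun hg h h' =>
    ⟨hCmk hg (mul_inv_eq_iff_eq_mul.1 h), Subgroup.mem_centralizer_singleton_iff.2 (mul_inv_eq_iff_eq_mul.1 h')⟩
  have hπ1 : ∀ (g : R), Small q (g : MulAut M) → π g = 1 := by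
    intro g hg
    refine (QuotientGroup.eq_one_iff _).2 ?_
    rcases eq_or_ne u (g : MulAut M) with h | h
    · exact ⟨1, Subtype.ext (MulEquiv.ext fun x => Subtype.ext (by
        show (ι ^ (1 : ℤ)) x = ((g : MulAut M) x : M)
        rw [zpow_one, ← h]; rfl))⟩
    · have hle := negSub_le_fixSub hq2 hM hβ hu.1 hg.1 hiu (hPβ _ g.2.1.1) (hCc g.2.1) h hu.2 hg.2
      exact ⟨0, Subtype.ext (MulEquiv.ext fun x => Subtype.ext (by
        show ((ι ^ (0 : ℤ)) x : M) = (g : MulAut M) x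
        rw [zpow_zero]; exact (mem_fixSub.1 (hle x.2)).symm))⟩
  have hgen : ∀ v ∈ G, good v := by
    intro v hv
    obtain ⟨hvP, hvs⟩ := hG v hv
    rcases hswap v hv with ⟨h1, h2⟩ | ⟨h1, h2⟩
    · refine Or.inl ⟨hRmk hvP h1 h2, ?_⟩
      show π _ * π (cv _) = 1
      rw [hπ1 _ hvs, hπ1 _ (small_conj hvs), mul_one]
    · refine Or.inr ⟨h1, hRmk (mul_mem hvP hv0P) ?_ ?_, ?_⟩
      · rw [mul_inv_rev]
        calc v * v0 * u * (v0⁻¹ * v⁻¹) = v * (v0 * u * v0⁻¹) * v⁻¹ := by group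
          _ = u := h2
      · rw [mul_inv_rev]
        calc v * v0 * u0 * (v0⁻¹ * v⁻¹) = v * (v0 * u0 * v0⁻¹) * v⁻¹ := by group
          _ = u0 := by rw [hv0u0, h1]
      · show π _ * π (cv _) = 1
        rw [← map_mul, show (⟨v * v0, _⟩ : R) * cv ⟨v * v0, _⟩ = 1 from Subtype.ext (by
          show v * v0 * (v0 * (v * v0) * v0⁻¹) = 1
          calc v * v0 * (v0 * (v * v0) * v0⁻¹) = v * (v0 * v0) * v := by group
            _ = 1 := by rw [← sq, hv0s.1, mul_one, ← sq, hvs.1]), map_one]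
  have hfixu : ∀ {g : MulAut M}, g ∈ R → g * u * g⁻¹ = u ∧ g * u0 * g⁻¹ = u0 := fun hg =>
    ⟨mul_inv_eq_iff_eq_mul.2 (hCc hg.1),
      mul_inv_eq_iff_eq_mul.2 (Subgroup.mem_centralizer_singleton_iff.1 hg.2)⟩
  have hstep : ∀ v ∈ G, ∀ τ, good τ → good (v * τ) := by
    intro v hv τ ih
    rcases hgen v hv with ⟨hv', hφv⟩ | ⟨hvu, hv', hφv⟩ <;> rcases ih with ⟨hτ', hφτ⟩ | ⟨hτu, hτ', hφτ⟩
    · exact Or.inl ⟨mul_mem hv' hτ', by
        rw [show (⟨v * τ, _⟩ : R) = ⟨v, hv'⟩ * ⟨τ, hτ'⟩ from rfl, map_mul, hφv, hφτ, mul_one]⟩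
    · refine Or.inr ⟨?_, ?_, ?_⟩
      · rw [show v * τ * u * (v * τ)⁻¹ = v * (τ * u * τ⁻¹) * v⁻¹ by group, hτu, (hfixu hv').2]
      · rw [mul_assoc]; exact mul_mem hv' hτ'
      · rw [show (⟨v * τ * v0, _⟩ : R) = ⟨v, hv'⟩ * ⟨τ * v0, hτ'⟩ from Subtype.ext (mul_assoc _ _ _),
          map_mul, hφv, hφτ, mul_one]
    · have e : v * τ * v0 = v * v0 * (v0 * τ * v0⁻¹) := by
        calc v * τ * v0 = v * (v0 * v0) * τ * v0 := by rw [← sq, hv0s.1, mul_one]
          _ = v * v0 * (v0 * τ * v0) := by group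
          _ = _ := by rw [hv0i]
      refine Or.inr ⟨?_, e ▸ mul_mem hv' (hRv0 τ hτ'), ?_⟩
      · rw [show v * τ * u * (v * τ)⁻¹ = v * (τ * u * τ⁻¹) * v⁻¹ by group, (hfixu hτ').1, hvu]
      · rw [show (⟨v * τ * v0, _⟩ : R) = ⟨v * v0, hv'⟩ * cv ⟨τ, hτ'⟩ from Subtype.ext e, map_mul, hφcv,
          hφv, hφτ, mul_one]
    · have e : v * τ = v * v0 * (v0 * (τ * v0) * v0⁻¹) := by
        calc v * τ = v * (v0 * v0) * τ := by rw [← sq, hv0s.1, mul_one]
          _ = _ := by group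
      refine Or.inl ⟨e ▸ mul_mem hv' (hRv0 _ hτ'), ?_⟩
      rw [show (⟨v * τ, _⟩ : R) = ⟨v * v0, hv'⟩ * cv ⟨τ * v0, hτ'⟩ from Subtype.ext e, map_mul, hφcv,
        hφv, hφτ, mul_one]
  have hgood : ∀ σ ∈ Subgroup.closure G, good σ := by
    intro σ hσ
    induction hσ using Subgroup.closure_induction_left with
    | one => exact Or.inl ⟨one_mem _, map_one φ⟩
    | mul_left v hv τ hτ ih => exact hstep v hv τ ih
    | inv_mul_cancel v hv τ hτ ih =>
      rw [inv_eq_of_mul_eq_one_right (show v * v = 1 by rw [← sq]; exact (hG v hv).2.1)]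
      exact hstep v hv τ ih
  rcases hgood c (hXG hc) with ⟨hcR, -⟩ | ⟨hcu, hcv0, hφc⟩
  · exact he (hfixu hcR).1
  have hc2 : (⟨c * v0, hcv0⟩ : R).1 * (cv ⟨c * v0, hcv0⟩).1 = c ^ 2 := by
    show c * v0 * (v0 * (c * v0) * v0⁻¹) = c ^ 2
    calc c * v0 * (v0 * (c * v0) * v0⁻¹) = c * (v0 * v0) * c := by group
      _ = c ^ 2 := by rw [← sq, hv0s.1, mul_one, sq]
  have hφc' : π (⟨c * v0, hcv0⟩ * cv ⟨c * v0, hcv0⟩) = 1 := by rw [map_mul]; exact hφc
  obtain ⟨l, hl⟩ := (QuotientGroup.eq_one_iff _).1 hφc'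
  have hle : negSub u ≤ fixSub (a' * c ^ 2 * a) := by
    have hzu : (a' * c ^ 2 * a) * u = u * (a' * c ^ 2 * a) := by
      have h1 : Commute (c ^ 2) u := by
        rw [← hc2]
        exact (show Commute _ u from hCc (⟨c * v0, hcv0⟩ : R).2.1).mul_left (hCc (cv ⟨c * v0, hcv0⟩).2.1)
      have h2 : Commute a' u := by
        have h3 : u = a ^ 2 := hu2a
        rw [h3]
        exact (haa'.symm.pow_right 2)
      exact ((h2.mul_left h1).mul_left hau).eq
    refine negSub_le_fixSub hq2 hM hβ hu.1 hb.1 hiu hiv hzu (fun h => he ?_) hu.2 hb.2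
    have h1 : c * a * u = u * (c * a) := by
      have h2 := ((Commute.refl (c * a)).pow_right 2).eq
      rwa [show (c * a) ^ 2 = a' * c ^ 2 * a by rw [ha']; simp only [sq]; group, ← h] at h2
    rw [mul_assoc, hau, ← mul_assoc, ← mul_assoc] at h1
    rw [hu'def, mul_inv_eq_iff_eq_mul]
    exact mul_right_cancel h1
  have hle' := negSub_le_fixSub hq2 hM hβ hu.1 (small_conj hu).1 hiu hiu' hu'c he.symm hu.2 (small_conj hu).2
  have hres : (r ⟨_, (⟨c * v0, hcv0⟩ * cv ⟨c * v0, hcv0⟩ : R).2.1⟩) * α = 1 := by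
    refine MulEquiv.ext fun x => Subtype.ext ?_
    have h2 : a' ((c ^ 2) (a x)) = (x : M) := mem_fixSub.1 (hle x.2)
    have h3 : a' (x : M) = x := ha'F x (hle' x.2)
    show ((⟨c * v0, hcv0⟩ : R).1 * (cv ⟨c * v0, hcv0⟩).1) (a x) = (x : M)
    rw [hc2]
    exact a'.injective (h2.trans h3.symm)
  have hl' : ι ^ l = r ⟨_, (⟨c * v0, hcv0⟩ * cv ⟨c * v0, hcv0⟩ : R).2.1⟩ := congrArg Subtype.val hl
  rw [← hl', ← eq_inv_iff_mul_eq_one] at hres
  have h4 : (α⁻¹) ^ 2 = 1 := by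
    rw [← hres, ← zpow_natCast, ← zpow_mul, mul_comm, zpow_mul, zpow_natCast, hι2, one_zpow]
  rw [inv_pow, inv_eq_one] at h4
  have := Nat.le_of_dvd two_pos (orderOf_dvd_of_pow_eq_one h4)
  omega

end CfsgLib.PLengthTwoExp
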