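import Mathlib
import Cfsg.Agent.PLengthGross.Series
import Cfsg.Agent.PLengthTwoExp.Power

/-!
The highest powers of `x` and `m x` agree modulo the next term on a weight piece.
-/

set_option autoImplicit false
set_option maxHeartbeats 400000

open scoped commutatorElement

namespace CfsgLib.PLengthTwoExp

open Cfsg CfsgLib.PLengthExp CfsgLib.PLengthGross

universe u v w

variable {k : Type w} [Field k] [IsAlgClosed k] {V : Type v} [AddCommGroup V] [Module k V]
  {H : Type u} [Group H] {ρ : H →* Module.End k V}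

/-- The stabilizer of the weight. -/
def pieceStab (pc : WeightPiece ρ) : Subgroup H where
  carrier := {h | ∀ a, pc.χ (centerAut (pc.L.act h) a) = pc.χ a}
  one_mem' := fun a => congrArg pc.χ (Subtype.ext (by show pc.L.act 1 a = a; rw [map_one]; rfl))
  mul_mem' := fun {y y'} hy hy' a => by
    rw [show centerAut (pc.L.act (y * y')) a = centerAut (pc.L.act y) (centerAut (pc.L.act y') a) from
      Subtype.ext (by show pc.L.act (y * y') a = pc.L.act y (pc.L.act y' a); rw [map_mul]; rfl), hy, hy']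
  inv_mem' := fun {y} hy a => by
    rw [← hy (centerAut (pc.L.act y⁻¹) a)]
    exact congrArg pc.χ (Subtype.ext (by
      show pc.L.act y (pc.L.act y⁻¹ a) = a
      rw [← MulAut.mul_apply, ← map_mul, mul_inv_cancel, map_one]; rfl))

theorem fixCenters_le_pieceStab (pc : WeightPiece ρ) : fixCenters H ≤ pieceStab pc :=
  fun _ hv a => congrArg pc.χ (Subtype.ext (hv pc.L a a.2))

instance instNormalRad (pc : WeightPiece ρ) : pc.rad.Normal := ⟨fun a ha b => by
  have h := mul_mem (pc.center_le_rad (pc.L.class_two b a)) ha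
  rwa [commutatorElement_def, inv_mul_cancel_right] at h⟩

/-- The symplectic space of the piece. -/
abbrev PieceMod (pc : WeightPiece ρ) : Type u := pc.L.R ⧸ pc.rad

instance instCommGroupPieceMod (pc : WeightPiece ρ) : CommGroup (PieceMod pc) where
  mul_comm := fun a b => by
    induction a using QuotientGroup.induction_on with
    | _ a =>
      induction b using QuotientGroup.induction_on with
      | _ b =>
        rw [← QuotientGroup.mk_mul, ← QuotientGroup.mk_mul, QuotientGroup.eq]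
        have h := pc.center_le_rad (pc.L.class_two b⁻¹ a⁻¹)
        rw [commutatorElement_def] at h
        simpa [mul_assoc] using h

variable [Finite H]

theorem map_rad_eq (pc : WeightPiece ρ) (y : pieceStab pc) :
    pc.rad.map (pc.L.act (y : H)).toMonoidHom = pc.rad := by
  refine Subgroup.eq_of_le_of_card_ge ?_
    (Subgroup.card_map_of_injective (f := (pc.L.act (y : H)).toMonoidHom) (pc.L.act (y : H)).injective).ge
  rintro _ ⟨s, hs, rfl⟩ t
  obtain ⟨t', rfl⟩ := (pc.L.act (y : H)).surjective t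
  refine Eq.trans ?_ ((y.2 ⟨⁅s, t'⁆, pc.L.class_two s t'⟩).trans (hs t'))
  exact congrArg pc.χ (Subtype.ext (map_commutatorElement (pc.L.act (y : H)) s t').symm)

/-- The action of the stabilizer on the piece. -/
noncomputable def pieceAct (pc : WeightPiece ρ) : pieceStab pc →* MulAut (PieceMod pc) :=
  MonoidHom.mk' (fun y => QuotientGroup.congr pc.rad pc.rad (pc.L.act (y : H)) (map_rad_eq pc y))
    fun y y' => MulEquiv.ext fun x => by
      induction x using QuotientGroup.induction_on with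
      | _ s =>
        show ((pc.L.act ((y * y' : pieceStab pc) : H) s : pc.L.R) : PieceMod pc) =
          ((pc.L.act (y : H) (pc.L.act (y' : H) s) : pc.L.R) : PieceMod pc)
        rw [Subgroup.coe_mul, map_mul]; rfl

theorem mem_ker_of_pieceAct {pc : WeightPiece ρ} {m : H} (hm : m ∈ fixCenters H)
    (h : pieceAct pc ⟨m, fixCenters_le_pieceStab pc hm⟩ = 1) : m ∈ pc.ker := by
  refine ⟨hm, fun s => ?_⟩
  have h1 : ((pc.L.act m s : pc.L.R) : PieceMod pc) = (s : PieceMod pc) := DFunLike.congr_fun h (s : PieceMod pc)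
  rwa [eq_comm, QuotientGroup.eq, Subgroup.Normal.mem_comm_iff inferInstance] at h1

theorem isPGroup_pieceMod (pc : WeightPiece ρ) : IsPGroup pc.L.q (PieceMod pc) :=
  pc.L.isPGroup.to_quotient _

/-- The pairing of the piece. -/
theorem exists_pairing (pc : WeightPiece ρ) : ∃ β : PieceMod pc →* PieceMod pc →* kˣ,
    IsAlt β ∧ (∀ y : pieceStab pc, Isom β (pieceAct pc y)) ∧
      ∀ s t : pc.L.R, β (s : PieceMod pc) (t : PieceMod pc) = pc.χ ⟨⁅s, t⁆, pc.L.class_two s t⟩ := by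
  let β₀ : pc.L.R →* PieceMod pc →* kˣ := MonoidHom.mk' (fun s => QuotientGroup.lift pc.rad
      (MonoidHom.mk' (fun t => pc.χ ⟨⁅s, t⁆, pc.L.class_two s t⟩) fun t t' => by
        rw [← map_mul]
        refine congrArg pc.χ (Subtype.ext ?_)
        show ⁅s, t * t'⁆ = ⁅s, t⁆ * ⁅s, t'⁆
        calc ⁅s, t * t'⁆ = ⁅s, t⁆ * (t * ⁅s, t'⁆ * t⁻¹) := by simp only [commutatorElement_def]; group
          _ = _ := by rw [Subgroup.mem_center_iff.1 (pc.L.class_two s t') t, mul_inv_cancel_right])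
      fun t ht => by
        rw [MonoidHom.mem_ker]
        show pc.χ _ = 1
        rw [← inv_eq_one, ← map_inv]
        exact (congrArg pc.χ (Subtype.ext (commutatorElement_inv s t))).trans (ht s))
    fun s s' => by
      ext t
      · refine congrArg Units.val ?_
        show pc.χ _ = pc.χ _ * pc.χ _
        rw [mul_comm, ← map_mul]
        refine congrArg pc.χ (Subtype.ext ?_)
        show ⁅s * s', t⁆ = ⁅s', t⁆ * ⁅s, t⁆
        calc ⁅s * s', t⁆ = s * ⁅s', t⁆ * s⁻¹ * ⁅s, t⁆ := by simp only [commutatorElement_def]; group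
          _ = _ := by rw [Subgroup.mem_center_iff.1 (pc.L.class_two s' t) s, mul_inv_cancel_right]
  let β : PieceMod pc →* PieceMod pc →* kˣ := QuotientGroup.lift pc.rad β₀ fun s hs => by
    rw [MonoidHom.mem_ker]
    ext t
    exact congrArg Units.val (hs t)
  refine ⟨β, ⟨fun x => ?_, fun x hx => ?_⟩, fun y x x' => ?_, fun s t => rfl⟩
  · induction x using QuotientGroup.induction_on with
    | _ s => exact (congrArg pc.χ (Subtype.ext (commutatorElement_self s) :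
        (⟨⁅s, s⁆, pc.L.class_two s s⟩ : Subgroup.center pc.L.R) = 1)).trans (map_one pc.χ)
  · induction x using QuotientGroup.induction_on with
    | _ s => exact (QuotientGroup.eq_one_iff s).2 fun t => hx (t : PieceMod pc)
  · induction x using QuotientGroup.induction_on with
    | _ s =>
      induction x' using QuotientGroup.induction_on with
      | _ t =>
        refine Eq.trans ?_ (y.2 ⟨⁅s, t⁆, pc.L.class_two s t⟩)
        exact congrArg pc.χ (Subtype.ext (map_commutatorElement (pc.L.act (y : H)) s t).symm)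

variable [FiniteDimensional k V] [CharP k 2]

theorem pieceStab_of_sum (hinj : Function.Injective ρ) (pc : WeightPiece ρ) {x : H} {n : ℕ}
    (hzp : (x ^ 2 ^ n) ^ 2 = 1) (hsum : ∑ i ∈ Finset.range (2 ^ (n + 1)), ρ (x ^ i) = 0) :
    x ^ 2 ^ n ∈ pieceStab pc := by
  haveI := Fact.mk Nat.prime_two
  haveI := Fact.mk pc.L.prime
  have hRk : (Nat.card pc.L.R : k) ≠ 0 := by
    obtain ⟨i, hi⟩ := IsPGroup.iff_card.1 pc.L.isPGroup
    rw [Ne, CharP.cast_eq_zero_iff k 2, hi]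
    exact fun h => pc.L.ne_two ((Nat.prime_dvd_prime_iff_eq Nat.prime_two pc.L.prime).1
      (Nat.prime_two.dvd_of_dvd_pow h)).symm
  have hz : Pinched 2 ρ (Subgroup.zpowers x) (x ^ 2 ^ n) :=
    ⟨x, Subgroup.mem_zpowers x, n, rfl, hzp, hsum⟩
  intro a
  exact congrArg pc.χ (Subtype.ext (hz.fix_center hinj pc.L.R hRk (pc.L.act.comp (Subgroup.zpowers x).subtype)
    (fun y s => pc.L.act_coe y s) a))

set_option maxHeartbeats 2000000 in
/-- A root on the piece. -/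
theorem piece_root (hinj : Function.Injective ρ) (pc : WeightPiece ρ) {x : H} {n : ℕ}
    (hzp : (x ^ 2 ^ n) ^ 2 = 1) (hsum : ∑ i ∈ Finset.range (2 ^ (n + 1)), ρ (x ^ i) = 0)
    (hz : x ^ 2 ^ n ∈ pieceStab pc) :
    pieceAct pc ⟨_, hz⟩ = 1 ∨ ∃ j, j + 2 ≤ n + 1 ∧ pc.L.q + 1 = 2 ^ (n + 1 - j) ∧
      ∃ hy : x ^ 2 ^ j ∈ pieceStab pc, (fixSub (pieceAct pc ⟨_, hz⟩)).index ≤ pc.L.q ^ 2 ∧
        ∀ m ∈ fixSub (pieceAct pc ⟨_, hz⟩), pieceAct pc ⟨_, hy⟩ m = m := by
  classical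
  haveI := Fact.mk Nat.prime_two
  haveI := Fact.mk pc.L.prime
  have hRk : (Nat.card pc.L.R : k) ≠ 0 := by
    obtain ⟨i, hi⟩ := IsPGroup.iff_card.1 pc.L.isPGroup
    rw [Ne, CharP.cast_eq_zero_iff k 2, hi]
    exact fun h => pc.L.ne_two ((Nat.prime_dvd_prime_iff_eq Nat.prime_two pc.L.prime).1
      (Nat.prime_two.dvd_of_dvd_pow h)).symm
  obtain ⟨u, hu, hχu⟩ := pc.weight
  let P := Subgroup.zpowers x
  let c : P →* MulAut pc.L.R := pc.L.act.comp P.subtype
  let St : Subgroup P := (pieceStab pc).comap P.subtype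
  let cM : St →* MulAut (PieceMod pc) :=
    (pieceAct pc).comp (MonoidHom.codRestrict (P.subtype.comp St.subtype) (pieceStab pc) fun y => y.2)
  have hcM : ∀ (y : St) (s : pc.L.R),
      cM y ((s : pc.L.R) : PieceMod pc) = ((c (y : P) s : pc.L.R) : PieceMod pc) := fun y s => rfl
  have hker : ∀ s : pc.L.R, (QuotientGroup.mk' pc.rad) s = 1 ↔ Rad pc.χ s :=
    fun s => (QuotientGroup.eq_one_iff s).trans WeightPiece.mem_rad
  rcases exists_root_exact (q := pc.L.q) rfl ρ hinj P pc.L.R pc.L.isPGroup hRk pc.L.class_two c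
      (fun y s => pc.L.act_coe y s) pc.χ hu hχu St (fun _ => Iff.rfl) (QuotientGroup.mk' pc.rad)
      (QuotientGroup.mk'_surjective _) hker cM
      hcM (Subgroup.mem_zpowers x) hzp hsum (show x ^ 2 ^ n ∈ pieceStab pc from hz) with
    h | ⟨j, hj, hq, hy, h1, h2⟩
  · exact Or.inl h
  · exact Or.inr ⟨j, hj, hq, hy, h1, h2⟩

theorem small_of_sum (hinj : Function.Injective ρ) (pc : WeightPiece ρ) {x : H} {n : ℕ}
    (hzp : (x ^ 2 ^ n) ^ 2 = 1) (hsum : ∑ i ∈ Finset.range (2 ^ (n + 1)), ρ (x ^ i) = 0)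
    (hz : x ^ 2 ^ n ∈ pieceStab pc) : Small pc.L.q (pieceAct pc ⟨_, hz⟩) := by
  refine ⟨by rw [← map_pow, show (⟨_, hz⟩ : pieceStab pc) ^ 2 = 1 from Subtype.ext hzp, map_one], ?_⟩
  rcases piece_root hinj pc hzp hsum hz with h | ⟨-, -, -, -, h, -⟩
  · rw [h]; exact (small_one pc.L.q pc.L.prime.pos).2
  · exact h

omit [Finite H] in
theorem mul_pow_mem {X : Subgroup H} {x : H} (hx : x ∈ Subgroup.normalizer (X : Set H)) {m : H} (hm : m ∈ X)
    (l : ℕ) : (m * x) ^ l * (x ^ l)⁻¹ ∈ X := by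
  induction l with
  | zero => simp
  | succ l ih =>
    have e : (m * x) ^ (l + 1) * (x ^ (l + 1))⁻¹ = m * (x * ((m * x) ^ l * (x ^ l)⁻¹) * x⁻¹) := by
      rw [pow_succ', pow_succ']; group
    rw [e]
    exact mul_mem hm ((Subgroup.mem_normalizer_iff.1 hx _).1 ih)

omit [FiniteDimensional k V] [CharP k 2] [Finite H] in
theorem sqOf_le_frattiniOf [Finite H] {X : Subgroup H} (hX : IsPGroup 2 X) : sqOf X ≤ frattiniOf X := by
  rw [sqOf, Subgroup.closure_le]
  rintro _ ⟨y, hy, rfl⟩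
  exact sq_mem_frattiniOf hX hy

/-- The nontrivial case of `piece_step`. -/
theorem piece_step_of_ne (hinj : Function.Injective ρ) {P : Subgroup H} (hP : IsPGroup 2 P) (pc : WeightPiece ρ)
    {n : ℕ} {x : H} (hx : x ∈ P) {X : Subgroup H} (hXP : X ≤ P) (hXf : X ≤ fixCenters H)
    (hXn : P ≤ Subgroup.normalizer (X : Set H)) {G : Set H} (hGP : G ⊆ P) (hXG : X ≤ Subgroup.closure G)
    (hG : ∀ w ∈ G, ∃ hw : w ∈ pieceStab pc, Small pc.L.q (pieceAct pc ⟨w, hw⟩)) {m : H} (hm : m ∈ X)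
    (hxp : (x ^ 2 ^ n) ^ 2 = 1) (hxs : ∑ i ∈ Finset.range (2 ^ (n + 1)), ρ (x ^ i) = 0)
    (hbp : ((m * x) ^ 2 ^ n) ^ 2 = 1) (hbs : ∑ i ∈ Finset.range (2 ^ (n + 1)), ρ ((m * x) ^ i) = 0)
    (hne : pieceAct pc ⟨_, pieceStab_of_sum hinj pc hxp hxs⟩ ≠ 1) :
    (m * x) ^ 2 ^ n * (x ^ 2 ^ n)⁻¹ ∈ frattiniOf X ⊔ (X ⊓ pc.ker) := by
  classical
  haveI := Fact.mk pc.L.prime
  have hzS := pieceStab_of_sum hinj pc hxp hxs
  obtain ⟨j, hj, hqf, hy, hidx, hfix⟩ := (piece_root hinj pc hxp hxs hzS).resolve_left hne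
  set f := n + 1 - j with hf
  set ψ := pieceAct pc
  obtain ⟨β, hβ, hiso, -⟩ := exists_pairing pc
  set K := (P.subgroupOf (pieceStab pc)) with hK
  have hK2 : IsPGroup 2 (K.map ψ) := (hP.comap_subtype).map ψ
  set a : pieceStab pc := ⟨x ^ 2 ^ j, hy⟩ with ha
  have haz : a ^ 2 ^ (f - 1) = ⟨_, hzS⟩ := Subtype.ext (by
    rw [Subgroup.coe_pow, ha, ← pow_mul, ← pow_add, show j + (f - 1) = n by omega])
  have hcX : (m * x) ^ 2 ^ j * (x ^ 2 ^ j)⁻¹ ∈ X := mul_pow_mem (hXn hx) hm _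
  set c : pieceStab pc := ⟨_, fixCenters_le_pieceStab pc (hXf hcX)⟩ with hc
  have hbzS := pieceStab_of_sum hinj pc hbp hbs
  have hca : (c * a) ^ 2 ^ (f - 1) = ⟨_, hbzS⟩ := Subtype.ext (by
    rw [Subgroup.coe_pow, Subgroup.coe_mul, hc, ha, inv_mul_cancel_right, ← pow_mul, ← pow_add,
      show j + (f - 1) = n by omega])
  let Gs : Set (pieceStab pc) := {w | (w : H) ∈ G}
  have hXG' : (X.subgroupOf (pieceStab pc)).map ψ ≤ Subgroup.closure (ψ '' Gs) := by
    rw [← MonoidHom.map_closure]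
    refine Subgroup.map_mono fun w hw => ?_
    have h1 : (w : H) ∈ (Subgroup.closure Gs).map (pieceStab pc).subtype := by
      rw [MonoidHom.map_closure]
      refine Subgroup.closure_mono ?_ (hXG hw)
      intro g hg
      exact ⟨⟨g, (hG g hg).1⟩, hg, rfl⟩
    obtain ⟨w', hw', he⟩ := h1
    rwa [Subtype.ext he] at hw'
  have key := pow_mem_sqOf (q := pc.L.q) hK2 (by rintro _ ⟨y, -, rfl⟩; exact hiso y) pc.L.ne_two
    (isPGroup_pieceMod pc) hβ (show 2 ≤ f by omega) hqf (a := ψ a) ⟨a, pow_mem hx (2 ^ j), rfl⟩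
    (by rw [← map_pow, haz]; exact small_of_sum hinj pc hxp hxs hzS)
    (by rw [← map_pow, haz]; exact hne)
    (by rw [← map_pow, haz]; exact hfix)
    (G := ψ '' Gs) (by
      rintro _ ⟨w, hw, rfl⟩
      obtain ⟨hw', hs⟩ := hG _ hw
      exact ⟨⟨w, hGP hw, rfl⟩, hs⟩)
    hXG' (by
      rintro _ ⟨g, hg, rfl⟩ _ ⟨y, hy', rfl⟩
      refine ⟨g * y * g⁻¹, ?_, by rw [map_mul, map_mul, map_inv]⟩
      exact (Subgroup.mem_normalizer_iff.1 (hXn hg) _).1 hy')
    (c := ψ c) ⟨c, hcX, rfl⟩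
    (by rw [← map_mul, ← map_pow, hca]; exact small_of_sum hinj pc hbp hbs hbzS)
  rw [← map_mul ψ, ← map_pow ψ, ← map_pow ψ, hca, haz, ← map_inv, ← map_mul] at key
  obtain ⟨w, hw, hwe⟩ : ∃ w ∈ sqOf (X.subgroupOf (pieceStab pc)),
      ψ w = ψ (⟨_, hbzS⟩ * (⟨_, hzS⟩ : pieceStab pc)⁻¹) := by
    have h1 : sqOf ((X.subgroupOf (pieceStab pc)).map ψ) ≤ (sqOf (X.subgroupOf (pieceStab pc))).map ψ := by
      rw [sqOf, Subgroup.closure_le]
      rintro _ ⟨_, ⟨y, hy', rfl⟩, rfl⟩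
      exact ⟨y ^ 2, sq_mem_sqOf hy', map_pow ψ y 2⟩
    exact h1 key
  have hwX : (w : H) ∈ sqOf X := by
    have h1 : sqOf (X.subgroupOf (pieceStab pc)) ≤ (sqOf X).subgroupOf (pieceStab pc) := by
      rw [sqOf, Subgroup.closure_le]
      rintro _ ⟨y, hy', rfl⟩
      exact sq_mem_sqOf (X := X) hy'
    exact h1 hw
  set y := (m * x) ^ 2 ^ n * (x ^ 2 ^ n)⁻¹ with hy
  have hyX : y ∈ X := mul_pow_mem (hXn hx) hm _
  have hmem : (w : H)⁻¹ * y ∈ X := mul_mem (inv_mem (sqOf_le X hwX)) hyX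
  rw [← mul_inv_cancel_left (w : H) y]
  refine Subgroup.mul_mem_sup (sqOf_le_frattiniOf (hP.to_le hXP) hwX) ⟨hmem, mem_ker_of_pieceAct (hXf hmem) ?_⟩
  rw [show (⟨_, fixCenters_le_pieceStab pc (hXf hmem)⟩ : pieceStab pc) =
      w⁻¹ * (⟨_, hbzS⟩ * (⟨_, hzS⟩ : pieceStab pc)⁻¹) from rfl, map_mul, map_inv, hwe, inv_mul_cancel]

/-- The highest powers of `x` and `m x` agree modulo the next term. -/
theorem piece_step (hinj : Function.Injective ρ) {P : Subgroup H} (hP : IsPGroup 2 P) (pc : WeightPiece ρ)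
    {n : ℕ} {x : H} (hx : x ∈ P) {X : Subgroup H} (hXP : X ≤ P) (hXf : X ≤ fixCenters H)
    (hXn : P ≤ Subgroup.normalizer (X : Set H)) {G : Set H} (hGP : G ⊆ P) (hXG : X ≤ Subgroup.closure G)
    (hG : ∀ w ∈ G, ∃ hw : w ∈ pieceStab pc, Small pc.L.q (pieceAct pc ⟨w, hw⟩)) {m : H} (hm : m ∈ X)
    (hsums : ∀ y ∈ P, (y ^ 2 ^ n) ^ 2 = 1 ∧ ∑ i ∈ Finset.range (2 ^ (n + 1)), ρ (y ^ i) = 0) :
    (m * x) ^ 2 ^ n * (x ^ 2 ^ n)⁻¹ ∈ frattiniOf X ⊔ (X ⊓ pc.ker) := by
  obtain ⟨hxp, hxs⟩ := hsums x hx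
  have hmx : m * x ∈ P := mul_mem (hXP hm) hx
  obtain ⟨hbp, hbs⟩ := hsums _ hmx
  by_cases h1 : pieceAct pc ⟨_, pieceStab_of_sum hinj pc hxp hxs⟩ = 1
  · by_cases h2 : pieceAct pc ⟨_, pieceStab_of_sum hinj pc hbp hbs⟩ = 1
    · have hy : (m * x) ^ 2 ^ n * (x ^ 2 ^ n)⁻¹ ∈ X := mul_pow_mem (hXn hx) hm _
      refine Subgroup.mem_sup_right ⟨hy, mem_ker_of_pieceAct (hXf hy) ?_⟩
      rw [show (⟨_, fixCenters_le_pieceStab pc (hXf hy)⟩ : pieceStab pc) =
        ⟨_, pieceStab_of_sum hinj pc hbp hbs⟩ * (⟨_, pieceStab_of_sum hinj pc hxp hxs⟩ : pieceStab pc)⁻¹ from rfl,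
        map_mul, map_inv, h1, h2, inv_one, mul_one]
    · have hxx : m⁻¹ * (m * x) = x := inv_mul_cancel_left m x
      have h := piece_step_of_ne hinj hP pc hmx hXP hXf hXn hGP hXG hG (inv_mem hm) hbp hbs
        (by rw [hxx]; exact hxp) (by rw [hxx]; exact hxs) h2
      rw [hxx] at h
      have h3 := inv_mem h
      rwa [mul_inv_rev, inv_inv] at h3
  · exact piece_step_of_ne hinj hP pc hx hXP hXf hXn hGP hXG hG hm hxp hxs hbp hbs h1

end CfsgLib.PLengthTwoExp
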