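import Mathlib
import Cfsg.Agent.Constrained.UpperSeries

/-!
The `p`-length of a group embedded in a product of two groups.
-/

set_option autoImplicit false
set_option maxHeartbeats 400000

namespace CfsgLib.PLengthTwoExp

open Cfsg CfsgLib.Constrained

universe u v w

variable {G : Type u} {G₁ : Type v} {G₂ : Type w} [Group G] [Group G₁] [Group G₂] [Finite G] [Finite G₁]
  [Finite G₂] {p : ℕ} [Fact p.Prime]

theorem pLengthLE_of_pair (f₁ : G →* G₁) (f₂ : G →* G₂) (hinj : ∀ g, f₁ g = 1 → f₂ g = 1 → g = 1) {l : ℕ}
    (h₁ : PLengthLE p l G₁) (h₂ : PLengthLE p l G₂) : PLengthLE p l G := by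
  have key : ∀ n, (upperPSeries p G₁ n).1.comap f₁ ⊓ (upperPSeries p G₂ n).1.comap f₂ ≤
      (upperPSeries p G n).1 := by
    intro n
    induction n with
    | zero =>
      intro g hg
      rw [upperPSeries_zero, upperPSeries_zero] at hg
      rw [upperPSeries_zero, Subgroup.mem_bot]
      exact hinj g (Subgroup.mem_bot.1 hg.1) (Subgroup.mem_bot.1 hg.2)
    | succ n ih =>
      set A := (upperPSeries p G₁ n).1.comap f₁
      set B := (upperPSeries p G₂ n).1.comap f₂
      set A' := (upperPSeries p G₁ (n + 1)).1.comap f₁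
      set B' := (upperPSeries p G₂ (n + 1)).1.comap f₂
      have hA : A.relIndex A' ∣ (upperPSeries p G₁ n).1.relIndex (upperPSeries p G₁ (n + 1)).1 := by
        show ((upperPSeries p G₁ n).1.comap f₁).relIndex A' ∣ _
        rw [Subgroup.relIndex_comap]
        exact relIndex_dvd_relIndex (Subgroup.map_comap_le _ _)
      have hB : B.relIndex B' ∣ (upperPSeries p G₂ n).1.relIndex (upperPSeries p G₂ (n + 1)).1 := by
        show ((upperPSeries p G₂ n).1.comap f₂).relIndex B' ∣ _
        rw [Subgroup.relIndex_comap]
        exact relIndex_dvd_relIndex (Subgroup.map_comap_le _ _)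
      have hdvd : (upperPSeries p G n).1.relIndex (A' ⊓ B') ∣ A.relIndex A' * B.relIndex B' := by
        refine (Subgroup.relIndex_dvd_of_le_left _ ih).trans ?_
        rw [← Subgroup.relIndex_inf_mul_relIndex A B (A' ⊓ B')]
        exact mul_dvd_mul (relIndex_dvd_relIndex (inf_le_right.trans inf_le_left))
          (relIndex_dvd_relIndex inf_le_right)
      by_cases hn : Even n
      · refine le_upperPSeries_succ_of_even hn inferInstance fun h => ?_
        rcases (Fact.out : p.Prime).dvd_mul.mp (h.trans hdvd) with h | h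
        · exact not_dvd_relIndex_upperPSeries hn (h.trans hA)
        · exact not_dvd_relIndex_upperPSeries hn (h.trans hB)
      · obtain ⟨a, ha⟩ := exists_relIndex_upperPSeries_eq (p := p) (G := G₁) hn
        obtain ⟨b, hb⟩ := exists_relIndex_upperPSeries_eq (p := p) (G := G₂) hn
        exact le_upperPSeries_succ_of_odd hn inferInstance (m := a + b)
          (hdvd.trans (by rw [pow_add, ← ha, ← hb]; exact mul_dvd_mul hA hB))
  unfold PLengthLE at h₁ h₂ ⊢
  have := key (2 * l + 1)
  rw [h₁, h₂, Subgroup.comap_top, Subgroup.comap_top, inf_top_eq] at this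
  exact top_le_iff.mp this

end CfsgLib.PLengthTwoExp
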