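import Mathlib
import Cfsg.Agent.PLengthGross.Main
import Cfsg.Agent.PLengthTwoExp.PieceStep
import Cfsg.Agent.PLengthTwoExp.Prod

/-!
Bryukhanova: the 2-length of a solvable group is at most `e` for Sylow 2-subgroups of exponent `2 ^ e`.
-/

set_option autoImplicit false
set_option maxHeartbeats 400000

open scoped commutatorElement TensorProduct

namespace CfsgLib.PLengthTwoExp

open Cfsg CfsgLib.PLengthExp CfsgLib.PLengthGross

universe u v w

section Factor

variable {H : Type u} [Group H] [Finite H] {N X Y : Subgroup H}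

theorem normal_subgroupOf_of_frattini (hX : IsPGroup 2 X) (hY : frattiniOf X ≤ Y) :
    (Y.subgroupOf X).Normal := by
  refine ⟨fun y hy x => ?_⟩
  show ((x * y * x⁻¹ : X) : H) ∈ Y
  have h := hY (sqOf_le_frattiniOf hX (comm_mem_sqOf x.2 y.2))
  have h2 := mul_mem h hy
  simpa using h2

end Factor

/-- The recursion: `(T - 1) ^ (2 ^ (n + 1) - 1) = 0` for the 2-elements gives 2-length at most `n`. -/
theorem pLengthLE_of_sum : ∀ (n : ℕ) (H : Type u) [Group H] [Finite H], Group.IsSolvable H → pCore 2 H = ⊥ →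
    ∀ (V : Type u) [AddCommGroup V] [Module (Clo 2) V] [FiniteDimensional (Clo 2) V]
      (ρ : H →* Module.End (Clo 2) V), Function.Injective ρ →
      (∀ x : H, (∃ i, x ^ 2 ^ i = 1) → ∑ i ∈ Finset.range (2 ^ (n + 1)), ρ (x ^ i) = 0) →
      PLengthLE 2 n H := by
  haveI := Fact.mk Nat.prime_two
  intro n
  induction n with
  | zero =>
    intro H _ _ _ _ V _ _ _ ρ hinj hsum
    rw [CfsgLib.Constrained.pLengthLE_zero_iff]
    intro hd
    obtain ⟨x, hx⟩ := exists_prime_orderOf_dvd_card' 2 hd
    have h := hsum x ⟨1, by rw [pow_one, ← hx, pow_orderOf_eq_one]⟩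
    rw [show 2 ^ (0 + 1) = 2 from rfl, Finset.sum_range_succ, Finset.sum_range_one, pow_zero, pow_one,
      map_one] at h
    have h1 : ρ x = ρ 1 := by
      rw [map_one]
      refine LinearMap.ext fun v => ?_
      have h2 := LinearMap.congr_fun h v
      rw [LinearMap.add_apply, LinearMap.zero_apply, Module.End.one_apply] at h2
      rw [Module.End.one_apply, ← sub_eq_zero, sub_eq_add_neg]
      have h3 : -v = v := by
        rw [neg_eq_iff_add_eq_zero, ← two_smul (Clo 2) v, show (2 : Clo 2) = 0 from CharTwo.two_eq_zero, zero_smul]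
      rw [h3, add_comm]
      exact h2
    rw [hinj h1, orderOf_one] at hx
    norm_num at hx
  | succ n ih =>
    intro H _ _ hsol hO V _ _ _ ρ hinj hsum
    haveI := hsol
    classical
    set m := n + 1 with hm
    have hpow : ∀ x : H, (∃ i, x ^ 2 ^ i = 1) → (x ^ 2 ^ m) ^ 2 = 1 := by
      intro x hx
      refine hinj ?_
      have h := geom_sum_mul (ρ x) (2 ^ (m + 1))
      rw [show (∑ i ∈ Finset.range (2 ^ (m + 1)), ρ x ^ i) = 0 by simpa only [map_pow] using hsum x hx,
        zero_mul, eq_comm, sub_eq_zero] at h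
      rw [map_one, ← pow_mul, ← pow_succ, map_pow, h]
    set M := pPrimePCore 2 H with hM
    obtain ⟨S⟩ : Nonempty (Sylow 2 H) := inferInstance
    set MS := M ⊓ (S : Subgroup H) with hMS
    have hMS2 : IsPGroup 2 MS := S.isPGroup'.to_le inf_le_right
    set N := Subgroup.normalizer (MS : Set H) with hN
    have hMSN : MS ≤ N := Subgroup.le_normalizer
    have hTidx : ¬ 2 ∣ (MS.subgroupOf M).index := not_dvd_relIndex_inf S M
    let T : Sylow 2 M := (hMS2.comap_of_injective M.subtype M.subtype_injective).toSylow hTidx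
    have hTmap : (T : Subgroup M).map M.subtype = MS := by
      show (MS.subgroupOf M).map M.subtype = MS
      rw [Subgroup.map_subgroupOf_eq_of_le inf_le_left]
    have hfr : N ⊔ M = ⊤ := by
      have h := Sylow.normalizer_sup_eq_top (N := M) T
      rwa [hTmap] at h
    have hP : ∀ y ∈ N, (∃ i, y ^ 2 ^ i = 1) → IsPGroup 2 (MS ⊔ Subgroup.zpowers y : Subgroup H) := by
      intro y hy hy2
      obtain ⟨i, hi⟩ := hy2
      obtain ⟨l, -, hl⟩ := (Nat.dvd_prime_pow Nat.prime_two).1 (orderOf_dvd_of_pow_eq_one hi)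
      exact hMS2.to_sup_of_normal_left' (IsPGroup.of_card (p := 2) (n := l)
        (by rw [Nat.card_zpowers, hl])) (Subgroup.zpowers_le.2 hy)
    -- the highest powers
    let G : Set H := {w | ∃ y ∈ N, (∃ i, y ^ 2 ^ i = 1) ∧ y ^ 2 ^ m = w}
    set Z := Subgroup.closure G with hZ
    have hG : ∀ w ∈ G, w ∈ MS ⊓ fixCenters H := by
      rintro w ⟨y, hy, hy2, rfl⟩
      obtain ⟨S', hS'⟩ := (hP y hy hy2).exists_le_sylow
      have hyS : y ∈ (S' : Subgroup H) := hS' (Subgroup.mem_sup_right (Subgroup.mem_zpowers y))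
      have hz : Pinched 2 ρ (S' : Subgroup H) (y ^ 2 ^ m) := ⟨y, hyS, m, rfl, hpow y hy2, hsum y hy2⟩
      have hzM : y ^ 2 ^ m ∈ M := pow_mem_of_pinched hO ρ hinj S' hz
      refine Subgroup.mem_inf.2 ⟨?_, ?_⟩
      · have h2 : IsPGroup 2 (MS ⊔ Subgroup.zpowers (y ^ 2 ^ m) : Subgroup H) :=
          (hP y hy hy2).to_le (sup_le le_sup_left (Subgroup.zpowers_le.2
            (pow_mem (Subgroup.mem_sup_right (Subgroup.mem_zpowers y)) _)))
        have h3 := T.is_maximal' (Q := (MS ⊔ Subgroup.zpowers (y ^ 2 ^ m)).subgroupOf M)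
          (h2.comap_of_injective M.subtype M.subtype_injective) (fun a ha => Subgroup.mem_sup_left ha)
        have h4 : (⟨y ^ 2 ^ m, hzM⟩ : M) ∈ (MS ⊔ Subgroup.zpowers (y ^ 2 ^ m)).subgroupOf M :=
          Subgroup.mem_sup_right (Subgroup.mem_zpowers _)
        rw [h3] at h4
        exact h4
      · intro L a ha
        haveI := Fact.mk L.prime
        have hRk : (Nat.card L.R : Clo 2) ≠ 0 := by
          obtain ⟨i, hi⟩ := IsPGroup.iff_card.1 L.isPGroup
          rw [Ne, CharP.cast_eq_zero_iff (Clo 2) 2, hi]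
          exact fun h => L.ne_two ((Nat.prime_dvd_prime_iff_eq Nat.prime_two L.prime).1
            (Nat.prime_two.dvd_of_dvd_pow h)).symm
        exact hz.fix_center hinj L.R hRk (L.act.comp (S' : Subgroup H).subtype) (fun g s => L.act_coe g s) ⟨a, ha⟩
    have hGsmall : ∀ (pc : WeightPiece ρ), ∀ w ∈ G, ∃ hw : w ∈ pieceStab pc,
        Small pc.L.q (pieceAct pc ⟨w, hw⟩) := by
      rintro pc w ⟨y, hy, hy2, rfl⟩
      exact ⟨_, small_of_sum hinj pc (hpow y hy2) (hsum y hy2) (pieceStab_of_sum hinj pc (hpow y hy2) (hsum y hy2))⟩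
    have hZle : Z ≤ MS ⊓ fixCenters H := (Subgroup.closure_le _).2 hG
    have hZconj : ∀ g ∈ N, ∀ z ∈ Z, g * z * g⁻¹ ∈ Z := by
      intro g hg z hz
      refine (?_ : Z ≤ Z.comap (MulAut.conj g).toMonoidHom) hz
      rw [hZ, Subgroup.closure_le]
      rintro _ ⟨y, hy, ⟨i, hi⟩, rfl⟩
      exact Subgroup.subset_closure ⟨g * y * g⁻¹, mul_mem (mul_mem hg hy) (inv_mem hg),
        ⟨i, by rw [conj_pow, hi, mul_one, mul_inv_cancel]⟩, conj_pow⟩
    have hnorm : ∀ (X : Subgroup H), (∀ g ∈ N, ∀ z ∈ X, g * z * g⁻¹ ∈ X) → N ≤ Subgroup.normalizer (X : Set H) :=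
      fun X h g hg => Subgroup.mem_normalizer_iff.2 fun z => ⟨h g hg z, fun hz => by
        have := h g⁻¹ (inv_mem hg) _ hz
        simpa [mul_assoc] using this⟩
    have key : ∀ c, ∀ X : Subgroup H, Nat.card X = c → N ≤ Subgroup.normalizer (X : Set H) → X ≤ MS →
        (Z ≤ X ∨ X ≤ Z) → ∃ (L : Subgroup N) (_ : L.Normal), PLengthLE 2 n (N ⧸ L) ∧
          ∀ g ∈ L, ¬ 2 ∣ orderOf (g : H) → ∀ a ∈ X, (g : H) * a = a * g := by
      intro c
      induction c using Nat.strong_induction_on with
      | _ c ihc =>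
      intro X hc hXN hXMS hXZ
      rcases eq_or_ne X ⊥ with rfl | hXne
      · refine ⟨⊤, inferInstance, CfsgLib.Constrained.pLengthLE_mono (Nat.zero_le n) ?_, fun g _ _ a ha => ?_⟩
        · rw [CfsgLib.Constrained.pLengthLE_zero_iff, ← Subgroup.index_eq_card, Subgroup.index_top]
          norm_num
        · rw [Subgroup.mem_bot.1 ha, mul_one, one_mul]
      have hX2 : IsPGroup 2 X := hMS2.to_le hXMS
      -- the target
      obtain ⟨T₀, hT₀X, hT₀ne, hT₀N, hT₀F, hT₀Z, hT₀⟩ : ∃ T₀ : Subgroup H, T₀ ≤ X ∧ T₀ ≠ X ∧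
          N ≤ Subgroup.normalizer (T₀ : Set H) ∧ frattiniOf X ≤ T₀ ∧ (Z ≤ T₀ ∨ X ≤ Z) ∧
          ∀ g ∈ N, (∃ i, g ^ 2 ^ i = 1) → ∀ a ∈ X, (a * g) ^ 2 ^ m * (g ^ 2 ^ m)⁻¹ ∈ T₀ := by
        by_cases hlt : X ≤ Z
        · have hXf : X ≤ fixCenters H := hlt.trans (hZle.trans inf_le_right)
          refine ⟨next ρ X, inf_le_left, next_ne hinj inferInstance hX2 hXf
            (fun a ha ha' => eq_one_of_centralizes_layers hO ha ha') hXne, le_normalizer_next hXN,
            le_inf (frattiniOf_le X) (le_iInf fun _ => le_sup_left), Or.inr hlt, fun g hg hg2 a ha => ?_⟩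
          have hPg := hP g hg hg2
          have hPN : (MS ⊔ Subgroup.zpowers g : Subgroup H) ≤ N := sup_le hMSN (Subgroup.zpowers_le.2 hg)
          refine Subgroup.mem_inf.2 ⟨mul_pow_mem (hXN hg) ha _, Subgroup.mem_iInf.2 fun pc => ?_⟩
          refine piece_step hinj hPg pc (Subgroup.mem_sup_right (Subgroup.mem_zpowers g))
            (hXMS.trans le_sup_left) hXf (hPN.trans hXN)
            (fun w hw => Subgroup.mem_sup_left (Subgroup.mem_inf.1 (hG w hw)).1) hlt (hGsmall pc) ha fun y hy => ?_
          obtain ⟨i, hi⟩ := hPg ⟨y, hy⟩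
          have hy2 : ∃ i, y ^ 2 ^ i = 1 := ⟨i, congrArg Subtype.val hi⟩
          exact ⟨hpow y hy2, hsum y hy2⟩
        · have hZX : Z ≤ X := hXZ.resolve_right hlt
          refine ⟨frattiniOf X ⊔ Z, sup_le (frattiniOf_le X) hZX, fun h => hlt (le_of_eq
            (eq_of_frattiniOf_sup hZX h.ge).symm), hnorm _ fun g hg z hz => ?_, le_sup_left, Or.inl le_sup_right,
            fun g hg hg2 a ha => ?_⟩
          · refine ((sup_le ?_ ?_) : frattiniOf X ⊔ Z ≤ (frattiniOf X ⊔ Z).comap (MulAut.conj g).toMonoidHom) hz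
            · exact fun y hy => Subgroup.mem_sup_left (conj_mem_frattiniOf (hXN hg) hy)
            · exact fun y hy => Subgroup.mem_sup_right (hZconj g hg y hy)
          · have hPg := hP g hg hg2
            have hag : a * g ∈ (MS ⊔ Subgroup.zpowers g : Subgroup H) :=
              mul_mem (Subgroup.mem_sup_left (hXMS ha)) (Subgroup.mem_sup_right (Subgroup.mem_zpowers g))
            obtain ⟨i, hi⟩ := hPg ⟨_, hag⟩
            refine Subgroup.mem_sup_right (mul_mem ?_ (inv_mem ?_))
            · exact Subgroup.subset_closure ⟨a * g, mul_mem (hMSN (hXMS ha)) hg,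
                ⟨i, congrArg Subtype.val hi⟩, rfl⟩
            · exact Subgroup.subset_closure ⟨g, hg, hg2, rfl⟩
      -- a maximal invariant subgroup over the target
      obtain ⟨Y, ⟨hTY, hYX, hYN⟩, hYmax⟩ :=
        (Set.toFinite {Y : Subgroup H | T₀ ≤ Y ∧ Y < X ∧ N ≤ Subgroup.normalizer (Y : Set H)}).exists_maximal
          ⟨T₀, le_rfl, lt_of_le_of_ne hT₀X hT₀ne, hT₀N⟩
      haveI hYn : (Y.subgroupOf X).Normal := normal_subgroupOf_of_frattini hX2 (hT₀F.trans hTY)
      let A := X ⧸ Y.subgroupOf X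
      have hsq : ∀ a : A, a ^ 2 = 1 := fun a => by
        induction a using QuotientGroup.induction_on with
        | _ a =>
          rw [← QuotientGroup.mk_pow, QuotientGroup.eq_one_iff]
          exact hTY (hT₀F (sq_mem_frattiniOf hX2 a.2))
      letI : CommGroup A := { (inferInstance : Group A) with
        mul_comm := fun a b => by
          have ha : a⁻¹ = a := inv_eq_of_mul_eq_one_right (by rw [← sq, hsq])
          have hb : b⁻¹ = b := inv_eq_of_mul_eq_one_right (by rw [← sq, hsq])
          have hab : (a * b)⁻¹ = a * b := inv_eq_of_mul_eq_one_right (by rw [← sq, hsq])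
          rw [← hab, mul_inv_rev, ha, hb] }
      letI : Module (ZMod 2) (Additive A) := AddCommGroup.zmodModule fun v => by
        refine Additive.toMul.injective ?_
        show (Additive.toMul v) ^ 2 = 1
        exact hsq _
      let cN : N →* MulAut X := X.normalizerMonoidHom.comp (Subgroup.inclusion hXN)
      have hcN : ∀ (g : N) (a : X), ((cN g a : X) : H) = g * a * (g : H)⁻¹ := fun g a => rfl
      have hcY : ∀ g : N, (Y.subgroupOf X).map (cN g).toMonoidHom = Y.subgroupOf X := by
        intro g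
        refine Subgroup.eq_of_le_of_card_ge ?_
          (Subgroup.card_map_of_injective (f := (cN g).toMonoidHom) (cN g).injective).ge
        rintro _ ⟨a, ha, rfl⟩
        exact (Subgroup.mem_normalizer_iff.1 (hYN g.2) _).1 ha
      let act : N →* MulAut A := MonoidHom.mk' (fun g => QuotientGroup.congr _ _ (cN g) (hcY g))
        fun g g' => MulEquiv.ext fun a => by
          induction a using QuotientGroup.induction_on with
          | _ a =>
            show ((cN (g * g') a : X) : A) = ((cN g (cN g' a) : X) : A)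
            rw [map_mul, MulAut.mul_apply]
      -- the range has no normal 2-subgroup
      have hrange : pCore 2 act.range = ⊥ := by
        set Q := pCore 2 act.range with hQ
        have hQ2 : IsPGroup 2 Q := CfsgLib.Constrained.isPGroup_pCore
        letI : MulAction Q A :=
          { smul := fun σ a => ((σ : act.range) : MulAut A) a
            one_smul := fun a => rfl
            mul_smul := fun σ τ a => rfl }
        let Y' : Subgroup H :=
          { carrier := {a | ∃ ha : a ∈ X, ∀ σ ∈ Q, ((σ : act.range) : MulAut A) ((⟨a, ha⟩ : X) : A) =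
              ((⟨a, ha⟩ : X) : A)}
            one_mem' := ⟨one_mem X, fun σ _ => map_one _⟩
            mul_mem' := fun {a b} ⟨ha, ha'⟩ ⟨hb, hb'⟩ => ⟨mul_mem ha hb, fun σ hσ => by
              rw [show ((⟨a * b, mul_mem ha hb⟩ : X) : A) = ((⟨a, ha⟩ : X) : A) * ((⟨b, hb⟩ : X) : A) from rfl,
                map_mul, ha' σ hσ, hb' σ hσ]⟩
            inv_mem' := fun {a} ⟨ha, ha'⟩ => ⟨inv_mem ha, fun σ hσ => by
              rw [show ((⟨a⁻¹, inv_mem ha⟩ : X) : A) = ((⟨a, ha⟩ : X) : A)⁻¹ from rfl, map_inv, ha' σ hσ]⟩ }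
        have hYY' : Y ≤ Y' := fun a ha => ⟨hYX.le ha, fun σ _ => by
          rw [(QuotientGroup.eq_one_iff (⟨a, hYX.le ha⟩ : X)).2 ha, map_one]⟩
        have hY'N : N ≤ Subgroup.normalizer (Y' : Set H) := by
          refine hnorm _ fun g hg a => ?_
          rintro ⟨ha, ha'⟩
          have hca : g * a * g⁻¹ ∈ X := (Subgroup.mem_normalizer_iff.1 (hXN hg) a).1 ha
          refine ⟨hca, fun σ hσ => ?_⟩
          let gr : act.range := ⟨act ⟨g, hg⟩, _, rfl⟩
          have h1 := ha' (gr⁻¹ * σ * gr⁻¹⁻¹) ((inferInstance : Q.Normal).conj_mem σ hσ gr⁻¹)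
          have h2 : ((⟨g * a * g⁻¹, hca⟩ : X) : A) = act ⟨g, hg⟩ ((⟨a, ha⟩ : X) : A) := rfl
          rw [h2]
          have h3 := congrArg (act ⟨g, hg⟩) h1
          rw [inv_inv, Subgroup.coe_mul, Subgroup.coe_mul, Subgroup.coe_inv, MulAut.mul_apply, MulAut.mul_apply,
            MulAut.apply_inv_self] at h3
          exact h3
        have hlt : Y < Y' := by
          refine lt_of_le_of_ne hYY' fun he => ?_
          have h2A : 2 ∣ Nat.card A := by
            haveI : Nontrivial A := QuotientGroup.nontrivial_iff.2 fun h => hYX.ne (le_antisymm hYX.le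
              (Subgroup.subgroupOf_eq_top.1 h))
            obtain ⟨l, hl, hl'⟩ := (hX2.to_quotient (Y.subgroupOf X)).nontrivial_iff_card.1 inferInstance
            show 2 ∣ Nat.card (X ⧸ Y.subgroupOf X)
            rw [hl']
            exact dvd_pow_self 2 hl.ne'
          obtain ⟨b, hb, hb1⟩ := hQ2.exists_fixed_point_of_prime_dvd_card_of_fixed_point A h2A
            (a := (1 : A)) (fun σ => map_one ((σ : act.range) : MulAut A))
          obtain ⟨b, rfl⟩ := QuotientGroup.mk_surjective b
          refine hb1 ((QuotientGroup.eq_one_iff b).2 ?_).symm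
          show (b : H) ∈ Y
          rw [he]
          exact ⟨b.2, fun σ hσ => hb ⟨σ, hσ⟩⟩
        have hY'X : Y' = X := by
          by_contra h
          exact hlt.not_ge (hYmax ⟨hTY.trans hYY', lt_of_le_of_ne (fun a ha => ha.1) h, hY'N⟩ hYY')
        rw [Subgroup.eq_bot_iff_forall]
        intro σ hσ
        refine Subtype.ext (MulEquiv.ext fun a => ?_)
        induction a using QuotientGroup.induction_on with
        | _ a =>
          obtain ⟨ha, ha'⟩ : (a : H) ∈ Y' := by rw [hY'X]; exact a.2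
          exact ha' σ hσ
      -- the representation
      let lin : MulAut A →* Module.End (ZMod 2) (Additive A) :=
        { toFun := fun σ => (MulEquiv.toAdditive σ).toAddMonoidHom.toZModLinearMap 2
          map_one' := LinearMap.ext fun _ => rfl
          map_mul' := fun _ _ => LinearMap.ext fun _ => rfl }
      let rA : act.range →* Module.End (Clo 2) (Clo 2 ⊗[ZMod 2] Additive A) :=
        ((Module.End.baseChangeHom (ZMod 2) (Clo 2) (Additive A)).toMonoidHom.comp lin).comp act.range.subtype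
      have hrA : Function.Injective rA := by
        intro σ τ h
        have h1 : lin σ = lin τ := by
          refine LinearMap.ext fun v => ?_
          have h1 := DFunLike.congr_fun h ((1 : Clo 2) ⊗ₜ v)
          exact Module.FaithfullyFlat.tensorProduct_mk_injective (A := ZMod 2) (B := Clo 2) (Additive A) h1
        exact Subtype.ext (MulEquiv.ext fun a =>
          congrArg Additive.toMul (DFunLike.congr_fun h1 (Additive.ofMul a)))
      have hA : PLengthLE 2 n act.range := by
        haveI : Group.IsSolvable act.range :=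
          solvable_of_surjective (f := act.rangeRestrict) act.rangeRestrict_surjective
        refine ih act.range inferInstance hrange _ rA hrA fun y hy => ?_
        obtain ⟨g, hg, rfl⟩ := exists_preimage_pow (p := 2) act.rangeRestrict act.rangeRestrict_surjective hy
        have hg' : ∃ i, (g : H) ^ 2 ^ i = 1 := by
          obtain ⟨i, hi⟩ := hg
          exact ⟨i, by rw [← Subgroup.coe_pow, hi, Subgroup.coe_one]⟩
        have hzero : ∑ i ∈ Finset.range (2 ^ m), lin (act (g ^ i)) = 0 := by
          refine LinearMap.ext fun v => ?_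
          obtain ⟨a, hav⟩ := QuotientGroup.mk_surjective (Additive.toMul v)
          haveI : (X.subgroupOf N).Normal := ⟨fun b hb g =>
            (Subgroup.mem_normalizer_iff.1 (hXN g.2) _).1 hb⟩
          let fA : X.subgroupOf N →* A := (QuotientGroup.mk' _).comp
            (MonoidHom.codRestrict (N.subtype.comp (X.subgroupOf N).subtype) X fun b => b.2)
          obtain ⟨hmem, hf⟩ := map_mul_pow (X.subgroupOf N) fA
            (v := ⟨(a : H), hMSN (hXMS a.2)⟩) a.2 g (2 ^ m)
          have h1 : fA ⟨_, hmem⟩ = 1 := (QuotientGroup.eq_one_iff _).2 (hTY (hT₀ g g.2 hg' a a.2))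
          rw [h1] at hf
          rw [LinearMap.sum_apply, LinearMap.zero_apply]
          refine Additive.toMul.injective ?_
          rw [toMul_sum, toMul_zero]
          refine Eq.trans (Finset.prod_congr rfl fun i _ => ?_) hf.symm
          show act (g ^ i) (Additive.toMul v) = _
          rw [← hav]
          rfl
        calc ∑ i ∈ Finset.range (2 ^ m), rA (act.rangeRestrict g ^ i)
            = ∑ i ∈ Finset.range (2 ^ m),
                (Module.End.baseChangeHom (ZMod 2) (Clo 2) (Additive A)) (lin (act (g ^ i))) := by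
              refine Finset.sum_congr rfl fun i _ => ?_
              rw [← map_pow]; rfl
          _ = 0 := by rw [← map_sum, hzero, map_zero]
      obtain ⟨L', hL'n, hL', hL'c⟩ := ihc (Nat.card Y) (by
          rw [← hc]
          exact lt_of_le_of_ne (Subgroup.card_le_of_le hYX.le)
            fun h => hYX.ne (Subgroup.eq_of_le_of_card_ge hYX.le h.ge))
        Y rfl hYN (hYX.le.trans hXMS) (hT₀Z.imp (fun h => h.trans hTY) fun h => hYX.le.trans h)
      haveI := hL'n
      refine ⟨L' ⊓ act.ker, inferInstance, ?_, fun g hg hgo a ha => ?_⟩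
      · refine pLengthLE_of_pair
          (QuotientGroup.lift (L' ⊓ act.ker) (QuotientGroup.mk' L') (by rw [QuotientGroup.ker_mk']; exact inf_le_left))
          (QuotientGroup.lift (L' ⊓ act.ker) act.rangeRestrict
            (by rw [MonoidHom.ker_rangeRestrict]; exact inf_le_right))
          (fun y h1 h2 => ?_) hL' hA
        induction y using QuotientGroup.induction_on with
        | _ y =>
          exact (QuotientGroup.eq_one_iff y).2 (Subgroup.mem_inf.2 ⟨(QuotientGroup.eq_one_iff y).1 h1,
            MonoidHom.mem_ker.2 (congrArg Subtype.val h2)⟩)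
      · let W : ℕ → Subgroup H := fun j => match j with
          | 0 => X
          | 1 => Y
          | _ + 2 => ⊥
        have hW : ∀ j, IsPGroup 2 (W j) := fun j => match j with
          | 0 => hX2
          | 1 => hX2.to_le hYX.le
          | _ + 2 => hX2.to_le bot_le
        refine commute_of_stabilizes (W := W) hW (N := 2) rfl hgo (fun j a ha => ?_) a ha
        match j with
        | 0 =>
          change (g : H) * a * (g : H)⁻¹ * a⁻¹ ∈ Y
          have h1 : ((cN g ⟨a, ha⟩ : X) : A) = ((⟨a, ha⟩ : X) : A) :=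
            DFunLike.congr_fun (MonoidHom.mem_ker.1 hg.2) ((⟨a, ha⟩ : X) : A)
          rw [eq_comm, QuotientGroup.eq, Subgroup.Normal.mem_comm_iff hYn] at h1
          exact h1
        | 1 =>
          change (g : H) * a * (g : H)⁻¹ * a⁻¹ ∈ (⊥ : Subgroup H)
          rw [Subgroup.mem_bot, hL'c g hg.1 hgo a ha]
          group
        | _ + 2 =>
          change (g : H) * a * (g : H)⁻¹ * a⁻¹ ∈ (⊥ : Subgroup H)
          rw [show a = 1 from Subgroup.mem_bot.1 ha]
          simp
    obtain ⟨L, hLn, hL, hLc⟩ := key _ MS rfl le_rfl le_rfl (Or.inl (hZle.trans inf_le_left))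
    haveI := hLn
    set Q := pPrimeCore 2 H with hQ
    set Lh := L.map N.subtype with hLh
    have hodd : ∀ g ∈ Lh, ¬ 2 ∣ orderOf g → g ∈ M := by
      rintro _ ⟨g, hg, rfl⟩ hgo
      let f := QuotientGroup.mk' Q
      have hC := CfsgLib.Constrained.centralizer_pCore_le (p := 2) (G := H ⧸ Q)
        (CfsgLib.Constrained.IsPSolvable.quotient CfsgLib.Constrained.isPSolvable_of_isSolvable _)
        CfsgLib.Constrained.pPrimeCore_quotient_pPrimeCore
      show f (g : H) ∈ pCore 2 (H ⧸ Q)
      refine hC (Subgroup.mem_centralizer_iff.2 fun y hy => ?_)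
      have hy' : y ∈ ((T : Subgroup M).map M.subtype).map f := by
        rw [CfsgLib.Constrained.map_sylow_pPrimePCore T]; exact hy
      rw [hTmap] at hy'
      obtain ⟨a, ha, rfl⟩ := hy'
      rw [← map_mul, ← map_mul, hLc g hg hgo a ha]
    let fQ := QuotientGroup.mk' Q
    have hLMn : (Lh ⊔ M).Normal := by
      refine ⟨fun y hy g => ?_⟩
      obtain ⟨a, ha, b, hb, rfl⟩ := Subgroup.mem_sup_of_normal_right.1 (hfr ▸ Subgroup.mem_top g : g ∈ N ⊔ M)
      have hb' : b * y * b⁻¹ ∈ Lh ⊔ M :=
        mul_mem (mul_mem (Subgroup.mem_sup_right hb) hy) (inv_mem (Subgroup.mem_sup_right hb))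
      have hle : Lh ⊔ M ≤ (Lh ⊔ M).comap (MulAut.conj a).toMonoidHom := sup_le
        (by
          rintro _ ⟨l, hl, rfl⟩
          exact Subgroup.mem_sup_left ⟨⟨a, ha⟩ * l * ⟨a, ha⟩⁻¹, hLn.conj_mem l hl _, rfl⟩)
        (fun l hl => Subgroup.mem_sup_right ((inferInstance : M.Normal).conj_mem l hl a))
      have h : a * (b * y * b⁻¹) * a⁻¹ ∈ Lh ⊔ M := hle hb'
      convert h using 1
      group
    have hLM2 : IsPGroup 2 ((Lh ⊔ M).map fQ) := by
      rintro ⟨_, y, hy, rfl⟩
      obtain ⟨l, hl, b, hb, rfl⟩ := Subgroup.mem_sup_of_normal_right.1 hy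
      obtain ⟨e, d, hd, hed⟩ := Nat.exists_eq_pow_mul_and_not_dvd (orderOf_pos l).ne' 2 (by norm_num)
      have hlM : l ^ 2 ^ e ∈ M := hodd _ (pow_mem hl _) (by
        rw [orderOf_pow' l (pow_ne_zero _ two_ne_zero), hed, Nat.gcd_mul_right_left,
          Nat.mul_div_cancel_left _ (pow_pos two_pos e)]
        exact hd)
      have h1 : (l * b) ^ 2 ^ e ∈ M := by
        rw [← QuotientGroup.eq_one_iff, QuotientGroup.mk_pow, QuotientGroup.mk_mul, (QuotientGroup.eq_one_iff b).2 hb,
          mul_one, ← QuotientGroup.mk_pow, (QuotientGroup.eq_one_iff _).2 hlM]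
      obtain ⟨r, hr⟩ := CfsgLib.Constrained.isPGroup_pCore (p := 2) (G := H ⧸ Q) ⟨fQ ((l * b) ^ 2 ^ e), h1⟩
      refine ⟨e + r, Subtype.ext ?_⟩
      rw [Subgroup.coe_pow, pow_add, pow_mul, ← map_pow]
      exact congrArg Subtype.val hr
    have hLM : Lh ≤ M := le_sup_left.trans (CfsgLib.Constrained.le_pPrimePCore hLMn hLM2)
    let π : N →* H ⧸ M := (QuotientGroup.mk' M).comp N.subtype
    have hπ : Function.Surjective (QuotientGroup.lift L π fun l hl =>
        (QuotientGroup.eq_one_iff (l : H)).2 (hLM ⟨l, hl, rfl⟩)) := by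
      intro y
      induction y using QuotientGroup.induction_on with
      | _ g =>
        obtain ⟨a, ha, b, hb, rfl⟩ := Subgroup.mem_sup_of_normal_right.1 (hfr ▸ Subgroup.mem_top g : g ∈ N ⊔ M)
        refine ⟨(⟨a, ha⟩ : N), ?_⟩
        show (a : H ⧸ M) = ((a * b : H) : H ⧸ M)
        rw [QuotientGroup.mk_mul, (QuotientGroup.eq_one_iff b).2 hb, mul_one]
    exact CfsgLib.Constrained.pLengthLE_succ_of_quotient (CfsgLib.Constrained.pLengthLE_of_surjective hL _ hπ)

/-- Bryukhanova's bound. -/
theorem pLengthLE_of_expLE (e : ℕ) (K : Type u) [Group K] [Finite K] (hK : Group.IsSolvable K)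
    (hexp : ExpLE 2 e K) : PLengthLE 2 e K := by
  haveI := Fact.mk Nat.prime_two
  rcases e with _ | n
  · rw [CfsgLib.Constrained.pLengthLE_zero_iff]
    intro hd
    obtain ⟨x, hx⟩ := exists_prime_orderOf_dvd_card' 2 hd
    have := hexp x ⟨1, by rw [pow_one, ← hx, pow_orderOf_eq_one]⟩
    rw [pow_zero, pow_one] at this
    rw [this, orderOf_one] at hx
    norm_num at hx
  haveI := hK
  let K' := K ⧸ pPrimeCore 2 K
  have hexp' : ExpLE 2 (n + 1) K' := hexp.of_surjective _ (QuotientGroup.mk'_surjective _)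
  have hO : pPrimeCore 2 K' = ⊥ := CfsgLib.Constrained.pPrimeCore_quotient_pPrimeCore
  have h : PLengthLE 2 n (K' ⧸ pCore 2 K') := by
    refine pLengthLE_of_sum n _ inferInstance CfsgLib.Constrained.pCore_quotient_pCore _ (rep 2 K')
      (rep_injective 2 K' CfsgLib.Constrained.isPSolvable_of_isSolvable hO) fun y hy => ?_
    obtain ⟨g, hg, rfl⟩ := exists_preimage_pow (p := 2) (QuotientGroup.mk' (pCore 2 K'))
      (QuotientGroup.mk'_surjective _) hy
    by_contra hne
    obtain ⟨w, hw, hne'⟩ := exists_mul_pow_ne 2 K' (x := g) hne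
    exact hne' (by rw [hexp' g hg, hexp' _ (exists_pow_eq_one_mul CfsgLib.Constrained.isPGroup_pCore hw hg)])
  refine CfsgLib.Constrained.pLengthLE_succ_of_quotient ?_
  let q₁ : K' →* K ⧸ pPrimePCore 2 K :=
    QuotientGroup.lift _ (QuotientGroup.mk' _)
      (by rw [QuotientGroup.ker_mk']; exact CfsgLib.Constrained.pPrimeCore_le_pPrimePCore)
  let q₂ : K' ⧸ pCore 2 K' →* K ⧸ pPrimePCore 2 K := QuotientGroup.lift _ q₁ fun b hb => by
    induction b using QuotientGroup.induction_on with
    | _ a => exact (QuotientGroup.eq_one_iff a).2 hb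
  refine CfsgLib.Constrained.pLengthLE_of_surjective h q₂ fun y => ?_
  induction y using QuotientGroup.induction_on with
  | _ a => exact ⟨((a : K') : K' ⧸ pCore 2 K'), rfl⟩

end CfsgLib.PLengthTwoExp
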